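import Mathlib
import Cfsg.Agent.Lib.Perm.Modules

/-! Modules on which a normal subgroup fixes nothing are free over a group acting regularly on it. -/

set_option autoImplicit false

open scoped Pointwise IsMulCommutative

namespace Cfsg.Agent.Struct4.FreeComplement

/-- A normal element, in matrix form. -/
theorem exists_normal_element {S L : Type*} [Group S] [Fintype S] [Field L] [MulSemiringAction S L] [FaithfulSMul S L] :
    ∃ y : L, ∀ c : S → L, (∑ t, c t * (t • y) = 0) → (∀ s : S, ∑ t, c t * ((s * t) • y) = 0) → c = 0 := by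
  classical
  set K := FixedPoints.subfield S L
  obtain ⟨y, hy⟩ := exists_linearIndependent_algEquiv_apply K L
  refine ⟨y, fun c _ hc => ?_⟩
  let e : S ≃* (L ≃ₐ[K] L) := FixedPoints.toAlgAutMulEquiv S L
  have hy' : LinearIndependent K fun t : S => t • y := hy.comp _ e.injective
  have hspan : Submodule.span K (Set.range fun t : S => t • y) = ⊤ := by
    refine hy'.span_eq_top_of_card_eq_finrank' ?_
    rw [FixedPoints.finrank_eq_card]
  let M : Matrix S S L := Matrix.of fun s t => (s * t) • y
  have hMinj : ∀ d : S → L, Matrix.vecMul d M = 0 → d = 0 := by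
    intro d hd
    have hker : ∀ z : L, ∑ s, d s * (s • z) = 0 := by
      intro z
      have hz : z ∈ Submodule.span K (Set.range fun t : S => t • y) := by rw [hspan]; trivial
      induction hz using Submodule.span_induction with
      | mem z hz =>
        obtain ⟨t, rfl⟩ := hz
        have := congrFun hd t
        simpa [Matrix.vecMul, dotProduct, M, mul_smul] using this
      | zero => simp
      | add a b _ _ ha hb => simp [smul_add, mul_add, Finset.sum_add_distrib, ha, hb]
      | smul r a _ ha =>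
        have : ∀ s : S, d s * (s • (r • a)) = (r : L) * (d s * (s • a)) := fun s => by
          rw [show r • a = (r : L) * a from rfl, smul_mul', r.2 s]
          ring
        simp only [this, ← Finset.mul_sum, ha, mul_zero]
    let χ : S → (L →* L) := fun s => (MulSemiringAction.toRingHom S L s).toMonoidHom
    have hχ : Function.Injective χ := fun s t h => eq_of_smul_eq_smul fun z => DFunLike.congr_fun h z
    have hli := (linearIndependent_monoidHom L L).comp χ hχ
    refine funext (Fintype.linearIndependent_iff.1 hli d (funext fun z => ?_))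
    simpa [Finset.sum_apply, χ] using hker z
  have hdet : M.det ≠ 0 := fun h => by
    obtain ⟨d, hd0, hd⟩ := Matrix.exists_vecMul_eq_zero_iff.2 h
    exact hd0 (hMinj d hd)
  refine Matrix.eq_zero_of_mulVec_eq_zero hdet (funext fun s => ?_)
  simpa [Matrix.mulVec, dotProduct, M, mul_comm] using hc s

/-- A normal element of an artinian ring with a group of automorphisms acting freely. -/
theorem exists_normal_element_ring {R : Type*} [CommRing R] [IsArtinianRing R] {H : Type*} [Group H] [Fintype H] [DecidableEq H]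
    [MulSemiringAction H R]
    (hfree : ∀ m : Ideal R, m.IsMaximal → ∀ h : H, (∀ x : R, h • x - x ∈ m) → h = 1) :
    ∃ x : R, IsUnit (Matrix.of fun g h : H => (g * h) • x).det := by
  classical
  let rep : Ideal R → Ideal R := fun m => Quotient.out (Quotient.mk (MulAction.orbitRel H (Ideal R)) m)
  have hrep : ∀ m, ∃ a : H, a • rep m = m := fun m => by
    have h1 : MulAction.orbitRel H (Ideal R) (rep m) m := Quotient.exact (Quotient.out_eq _)
    obtain ⟨a, ha⟩ := h1
    exact ⟨a⁻¹, by rw [← ha]; exact inv_smul_smul a m⟩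
  have hrepeq : ∀ (a : H) m, rep (a • m) = rep m := fun a m =>
    congrArg Quotient.out (Quotient.sound (⟨a, rfl⟩ : MulAction.orbitRel H (Ideal R) (a • m) m))
  have hmax : ∀ (a : H) (m : Ideal R), m.IsMaximal → (a • m).IsMaximal := fun a m hm => by
    rw [Ideal.pointwise_smul_def]
    exact Ideal.map_isMaximal_of_equiv (MulSemiringAction.toRingEquiv H R a)
  have hmem : ∀ (a : H) (m : Ideal R) (z : R), a • z ∈ a • m ↔ z ∈ m := fun a m z =>
    Ideal.smul_mem_pointwise_smul_iff
  -- normal elements at the representatives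
  have hloc : ∀ n : Ideal R, n.IsMaximal → ∃ y : R, ∀ c : MulAction.stabilizer H n → R,
      (∀ s : MulAction.stabilizer H n, ∑ t, c t * (((s * t : MulAction.stabilizer H n) : H) • y) ∈ n) →
        ∀ t, c t ∈ n := by
    intro n hn
    set S := MulAction.stabilizer H n
    let F : S →* (R ⧸ n →+* R ⧸ n) :=
      { toFun := fun s => Ideal.quotientMap n (MulSemiringAction.toRingHom H R (s : H)) fun z hz => by
          show (s : H) • z ∈ n
          have := (hmem (s : H) n z).2 hz
          rwa [MulAction.mem_stabilizer_iff.1 s.2] at this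
        map_one' := Ideal.Quotient.ringHom_ext (RingHom.ext fun z => by
          show Ideal.Quotient.mk n ((1 : H) • z) = Ideal.Quotient.mk n z
          rw [one_smul])
        map_mul' := fun s t => Ideal.Quotient.ringHom_ext (RingHom.ext fun z => by
          show Ideal.Quotient.mk n (((s : H) * t) • z) = Ideal.Quotient.mk n ((s : H) • (t : H) • z)
          rw [mul_smul]) }
    let : Field (R ⧸ n) := Ideal.Quotient.field n
    let : MulSemiringAction S (R ⧸ n) :=
      { smul := fun s z => F s z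
        one_smul := fun z => by show F 1 z = z; rw [map_one]; rfl
        mul_smul := fun s t z => by show F (s * t) z = F s (F t z); rw [map_mul]; rfl
        smul_zero := fun s => map_zero (F s)
        smul_add := fun s => map_add (F s)
        smul_one := fun s => map_one (F s)
        smul_mul := fun s => map_mul (F s) }
    have : FaithfulSMul S (R ⧸ n) := ⟨fun {s t} h => by
      refine inv_mul_eq_one.1 (Subtype.ext (hfree n hn _ fun z => ?_))
      rw [← Ideal.Quotient.eq]
      show (s⁻¹ * t) • Ideal.Quotient.mk n z = Ideal.Quotient.mk n z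
      rw [mul_smul, ← h, inv_smul_smul]⟩
    obtain ⟨y, hy⟩ := exists_normal_element (S := S) (L := R ⧸ n)
    obtain ⟨y, rfl⟩ := Ideal.Quotient.mk_surjective y
    refine ⟨y, fun c hc t => ?_⟩
    have hall : ∀ s : S, ∑ t, Ideal.Quotient.mk n (c t) * ((s * t) • Ideal.Quotient.mk n y) = 0 := by
      intro s
      have := Ideal.Quotient.eq_zero_iff_mem.2 (hc s)
      rw [map_sum] at this
      simpa only [map_mul] using! this
    have := congrFun (hy (fun t => Ideal.Quotient.mk n (c t)) (by simpa using hall 1) hall) t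
    exact Ideal.Quotient.eq_zero_iff_mem.1 this
  choose y hy using hloc
  -- Chinese remainder theorem
  have hco : Pairwise (Function.onFun IsCoprime fun m : MaximalSpectrum R => m.asIdeal) := fun m m' hne => by
    refine Ideal.isCoprime_iff_sup_eq.2 ?_
    exact Ideal.IsMaximal.coprime_of_ne m.isMaximal m'.isMaximal fun h => hne (MaximalSpectrum.ext h)
  obtain ⟨x, hx⟩ := Ideal.exists_forall_sub_mem_ideal hco
    (fun m => if m.asIdeal = rep m.asIdeal then y m.asIdeal m.isMaximal else 0)
  refine ⟨x, ?_⟩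
  by_contra hu
  obtain ⟨m, hm, hdet⟩ := exists_max_ideal_of_mem_nonunits (mem_nonunits_iff.2 hu)
  let : Field (R ⧸ m) := Ideal.Quotient.field m
  have h0 : ((Ideal.Quotient.mk m).mapMatrix (Matrix.of fun g h : H => (g * h) • x)).det = 0 := by
    rw [← RingHom.map_det, Ideal.Quotient.eq_zero_iff_mem]
    exact hdet
  obtain ⟨c, hc0, hc⟩ := Matrix.exists_mulVec_eq_zero_iff.2 h0
  choose c' hc' using fun h => Ideal.Quotient.mk_surjective (c h)
  obtain rfl : (fun h => Ideal.Quotient.mk m (c' h)) = c := funext hc'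
  have hsum : ∀ g : H, ∑ h, c' h * ((g * h) • x) ∈ m := fun g => by
    rw [← Ideal.Quotient.eq_zero_iff_mem, map_sum]
    simpa [Matrix.mulVec, dotProduct, mul_comm] using congrFun hc g
  obtain ⟨a, ha⟩ := hrep m
  set n := rep m with hn
  have hnmax : n.IsMaximal := by
    have := hmax a⁻¹ m hm
    rwa [← eq_inv_smul_iff.2 ha] at this
  have hnrep : rep n = n := by
    show rep n = rep m
    rw [← ha, hrepeq]
  set d : H → R := fun h => a⁻¹ • c' h with hd
  have hsum' : ∀ g : H, ∑ h, d h * ((g * h) • x) ∈ n := by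
    intro g
    have h1 := (hmem a⁻¹ m _).2 (hsum (a * g))
    rw [Finset.smul_sum, ← eq_inv_smul_iff.2 ha] at h1
    convert h1 using 2 with h
    rw [smul_mul', ← mul_smul, mul_assoc, inv_mul_cancel_left]
  have hxn : x - y n hnmax ∈ n := by
    have := hx ⟨n, hnmax⟩
    simpa [hnrep] using this
  have hxother : ∀ b : H, b ∉ MulAction.stabilizer H n → b • x ∈ n := by
    intro b hb
    have hne : b⁻¹ • n ≠ n := fun h => hb (MulAction.mem_stabilizer_iff.2 (inv_smul_eq_iff.1 h).symm)
    have := hx ⟨b⁻¹ • n, hmax _ _ hnmax⟩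
    simp only at this
    rw [if_neg (by rw [hrepeq, hnrep]; exact hne), sub_zero] at this
    have h1 := (hmem b _ _).2 this
    rwa [smul_inv_smul] at h1
  refine hc0 (funext fun h₀ => ?_)
  have key : ∀ t : MulAction.stabilizer H n, d (h₀ * t) ∈ n := by
    refine hy n hnmax (fun t => d (h₀ * t)) fun s => ?_
    have h1 := hsum' ((s : H) * h₀⁻¹)
    rw [← Fintype.sum_equiv (Equiv.mulLeft h₀) (fun t => d (h₀ * t) * (((s : H) * t) • x)) _
      (fun t => by simp [mul_assoc]),
      ← Fintype.sum_subtype_add_sum_subtype (fun t => t ∈ MulAction.stabilizer H n)] at h1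
    rw [Ideal.add_mem_iff_left] at h1
    · rw [← Ideal.Quotient.eq_zero_iff_mem] at h1 ⊢
      rw [map_sum] at h1 ⊢
      convert h1 using 2 with t
      rw [map_mul, map_mul]
      congr 1
      refine (Ideal.Quotient.eq.2 ?_).symm
      show ((s * t : MulAction.stabilizer H n) : H) • x - ((s * t : MulAction.stabilizer H n) : H) • y n hnmax ∈ n
      rw [← smul_sub]
      have hst : ((s * t : MulAction.stabilizer H n) : H) • n = n := (s * t).2
      have := (hmem ((s * t : MulAction.stabilizer H n) : H) n _).2 hxn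
      rwa [hst] at this
    · refine Ideal.sum_mem _ fun t _ => Ideal.mul_mem_left _ _ (hxother _ fun h => t.2 ?_)
      simpa using Subgroup.mul_mem _ (Subgroup.inv_mem _ s.2) h
  have h2 := key 1
  simp only [OneMemClass.coe_one, mul_one, d] at h2
  have h3 := (hmem a n _).2 h2
  rw [smul_inv_smul, ha] at h3
  exact Ideal.Quotient.eq_zero_iff_mem.2 h3

/-- The translates of a subspace decompose the space. -/
def Free {k V H : Type*} [Field k] [AddCommGroup V] [Module k V] [Monoid H] [Fintype H]
    (π : H →* Module.End k V) : Prop :=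
  ∃ W : Submodule k V, ∀ v : V, ∃! f : H → W, ∑ h, π h (f h : V) = v

theorem free_of_abelian {k V U H : Type*} [Field k] [AddCommGroup V] [Module k V] [FiniteDimensional k V]
    [CommGroup U] [Fintype U] [Group H] [Fintype H] (ρ : U →* Module.End k V) (σ : H →* MulAut U)
    (π : H →* Module.End k V) (hρπ : ∀ h u, π h * ρ u = ρ (σ h u) * π h) (hzero : ∑ u, ρ u = 0)
    (hU : (Fintype.card U : k) ≠ 0) (hfpf : ∀ h, h ≠ 1 → ∀ u, σ h u = u → u = 1) : Free π := by
  classical
  set R := Algebra.adjoin k (Set.range ρ) with hR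
  have : IsMulCommutative R := Algebra.isMulCommutative_adjoin k (by
    rintro _ ⟨a, rfl⟩ _ ⟨b, rfl⟩
    rw [← map_mul, ← map_mul, mul_comm])
  have : IsArtinianRing R := IsArtinianRing.of_finite k R
  have hπinv : ∀ h, π h * π h⁻¹ = 1 := fun h => by rw [← map_mul, mul_inv_cancel, map_one]
  have hconj : ∀ (h : H) (z : Module.End k V), z ∈ R → π h * z * π h⁻¹ ∈ R := by
    intro h z hz
    induction hz using Algebra.adjoin_induction with
    | mem z hz =>
      obtain ⟨u, rfl⟩ := hz
      rw [hρπ, mul_assoc, hπinv, mul_one]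
      exact Algebra.subset_adjoin ⟨_, rfl⟩
    | algebraMap r =>
      rw [← Algebra.commutes r (π h), mul_assoc, hπinv, mul_one]
      exact R.algebraMap_mem r
    | add a b _ _ ha hb => rw [mul_add, add_mul]; exact R.add_mem ha hb
    | mul a b _ _ ha hb =>
      have e : π h * (a * b) * π h⁻¹ = (π h * a * π h⁻¹) * (π h * b * π h⁻¹) := by
        rw [show π h * a * π h⁻¹ * (π h * b * π h⁻¹) = π h * a * (π h⁻¹ * π h) * b * π h⁻¹ by
          simp only [mul_assoc], ← map_mul, inv_mul_cancel, map_one, mul_one]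
        simp only [mul_assoc]
      rw [e]
      exact R.mul_mem ha hb
  let : MulSemiringAction H R :=
    { smul := fun h z => ⟨π h * z * π h⁻¹, hconj h z z.2⟩
      one_smul := fun z => Subtype.ext (show π 1 * (z : Module.End k V) * π 1⁻¹ = z by
        rw [inv_one, map_one, one_mul, mul_one])
      mul_smul := fun h g z => Subtype.ext (show π (h * g) * (z : Module.End k V) * π (h * g)⁻¹ =
          π h * (π g * z * π g⁻¹) * π h⁻¹ by
        simp only [mul_inv_rev, map_mul, mul_assoc])
      smul_zero := fun h => Subtype.ext (show π h * (0 : Module.End k V) * π h⁻¹ = 0 by rw [mul_zero, zero_mul])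
      smul_add := fun h a b => Subtype.ext (show π h * ((a : Module.End k V) + b) * π h⁻¹ = _ by
        rw [mul_add, add_mul]; rfl)
      smul_one := fun h => Subtype.ext (show π h * 1 * π h⁻¹ = 1 by rw [mul_one, hπinv])
      smul_mul := fun h a b => Subtype.ext (show π h * ((a : Module.End k V) * b) * π h⁻¹ =
          π h * a * π h⁻¹ * (π h * b * π h⁻¹) by
        rw [show π h * (a : Module.End k V) * π h⁻¹ * (π h * b * π h⁻¹) =
            π h * a * (π h⁻¹ * π h) * b * π h⁻¹ by simp only [mul_assoc],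
          ← map_mul, inv_mul_cancel, map_one, mul_one]
        simp only [mul_assoc]) }
  have hsmul : ∀ (h : H) (z : R) (v : V), ((h • z : R) : Module.End k V) (π h v) = π h ((z : Module.End k V) v) := by
    intro h z v
    show (π h * (z : Module.End k V) * π h⁻¹) (π h v) = _
    rw [Module.End.mul_apply, ← Module.End.mul_apply (π h⁻¹), ← map_mul, inv_mul_cancel, map_one]
    rfl
  let ρR : U →* R := ρ.codRestrict R fun u => Algebra.subset_adjoin ⟨u, rfl⟩
  have hσ : ∀ (h : H) (u : U), h • ρR u = ρR (σ h u) := fun h u => Subtype.ext (by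
    show π h * ρ u * π h⁻¹ = ρ (σ h u)
    rw [hρπ, mul_assoc, hπinv, mul_one])
  obtain ⟨x, hx⟩ := exists_normal_element_ring (R := R) (H := H) fun m hm h hh => by
    by_contra h1
    let f : U →* U :=
      { toFun := fun u => σ h u * u⁻¹
        map_one' := by rw [map_one, inv_one, mul_one]
        map_mul' := fun a b => by rw [map_mul, mul_inv, mul_mul_mul_comm] }
    have hf : Function.Surjective f := Finite.injective_iff_surjective.1 ((injective_iff_map_eq_one f).2
      fun u hu => hfpf h h1 u (mul_inv_eq_one.1 hu))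
    have htriv : ∀ u, Ideal.Quotient.mk m (ρR u) = 1 := by
      intro u
      obtain ⟨w, rfl⟩ := hf u
      show Ideal.Quotient.mk m (ρR (σ h w * w⁻¹)) = 1
      rw [map_mul, map_mul, ← hσ, show Ideal.Quotient.mk m (h • ρR w) = Ideal.Quotient.mk m (ρR w) from
        Ideal.Quotient.eq.2 (hh _), ← map_mul, ← map_mul, mul_inv_cancel, map_one, map_one]
    have hsum : ∑ u, ρR u = 0 := Subtype.ext (by
      rw [AddSubmonoidClass.coe_finsetSum]
      exact hzero)
    have h2 := congrArg (Ideal.Quotient.mk m) hsum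
    rw [map_sum, Finset.sum_congr rfl fun u _ => htriv u, Finset.sum_const, Finset.card_univ, nsmul_one, map_zero] at h2
    have h3 : IsUnit ((Fintype.card U : R)) := by
      rw [← map_natCast (algebraMap k R)]
      exact (isUnit_iff_ne_zero.2 hU).map _
    refine hm.ne_top (Ideal.eq_top_of_isUnit_mem _ ?_ h3)
    rw [← Ideal.Quotient.eq_zero_iff_mem, map_natCast]
    exact h2
  set M : Matrix H H R := Matrix.of fun g h => (g * h) • x with hM
  have hMu : IsUnit M := (Matrix.isUnit_iff_isUnit_det _).2 hx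
  obtain ⟨Mu, hMu⟩ := hMu
  set N : Matrix H H R := ((Mu⁻¹ : (Matrix H H R)ˣ) : Matrix H H R) with hN
  have hNM : N * M = 1 := by rw [← hMu, hN, Units.inv_mul]
  have hMN : M * N = 1 := by rw [← hMu, hN, Units.mul_inv]
  -- the map `w ↦ Σ M w` on tuples of vectors is bijective
  have happ : ∀ (A B : Matrix H H R) (w : H → V) (g : H),
      ∑ h, ((A * B) g h : Module.End k V) (w h) =
        ∑ j, (A g j : Module.End k V) (∑ h, (B j h : Module.End k V) (w h)) := by
    intro A B w g
    simp only [Matrix.mul_apply, AddSubmonoidClass.coe_finsetSum, LinearMap.sum_apply, map_sum]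
    rw [Finset.sum_comm]
    rfl
  have hone : ∀ (w : H → V) (g : H), ∑ h, ((1 : Matrix H H R) g h : Module.End k V) (w h) = w g := by
    intro w g
    rw [Finset.sum_eq_single g]
    · simp
    · intro h _ hne; simp [Matrix.one_apply_ne hne.symm]
    · simp
  have hinjM : ∀ w : H → V, (∀ g, ∑ h, (M g h : Module.End k V) (w h) = 0) → w = 0 := by
    intro w hw
    funext g
    rw [← hone w g, ← hNM, happ]
    simp [hw]
  have hπx : ∀ (a : H) (g : H) (w : H → V), π a (∑ h, (M g h : Module.End k V) (w h)) =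
      ∑ h, (M (a * g) h : Module.End k V) (π a (w h)) := by
    intro a g w
    rw [map_sum]
    refine Finset.sum_congr rfl fun h _ => ?_
    rw [← hsmul]
    simp only [hM, Matrix.of_apply, mul_smul, mul_assoc]
  let Fx : Submodule k V :=
    { carrier := {v | ∀ h, π h v = v}
      add_mem' := fun {a b} ha hb h => by rw [map_add, ha h, hb h]
      zero_mem' := fun h => map_zero _
      smul_mem' := fun r a ha h => by rw [map_smul, ha h] }
  refine ⟨Fx.map (x : Module.End k V), fun v => ?_⟩
  have key : ∀ (w : H → V), (∀ h, w h ∈ Fx) → ∀ g, π g (∑ h, π h ((x : Module.End k V) (w h))) =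
      ∑ h, (M g h : Module.End k V) (w h) := by
    intro w hw g
    rw [map_sum]
    refine Finset.sum_congr rfl fun h _ => ?_
    rw [← Module.End.mul_apply, ← map_mul, ← hsmul, hw h (g * h)]
    rfl
  set w : H → V := fun h => ∑ g, (N h g : Module.End k V) (π g v) with hw
  have hMw : ∀ g, ∑ h, (M g h : Module.End k V) (w h) = π g v := by
    intro g
    show ∑ h, (M g h : Module.End k V) (∑ j, (N h j : Module.End k V) (π j v)) = _
    rw [← happ, hMN, hone (fun j => π j v)]
  have hwfix : ∀ h, w h ∈ Fx := by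
    intro h a
    have h0 : (fun h => π a (w h) - w h) = 0 := by
      refine hinjM _ fun g => ?_
      simp only [map_sub, Finset.sum_sub_distrib]
      rw [show g = a * (a⁻¹ * g) by rw [mul_inv_cancel_left], ← hπx, hMw, hMw, ← Module.End.mul_apply, ← map_mul,
        sub_self]
    exact sub_eq_zero.1 (congrFun h0 h)
  refine ⟨fun h => ⟨(x : Module.End k V) (w h), Submodule.mem_map_of_mem (hwfix h)⟩, ?_, ?_⟩
  · show ∑ h, π h ((x : Module.End k V) (w h)) = v
    have h1 := key w hwfix 1
    rw [hMw, map_one] at h1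
    simpa using h1
  · intro f hf
    choose w' hw' hfw using fun h => Submodule.mem_map.1 (f h).2
    have h0 : (fun h => w' h - w h) = 0 := by
      refine hinjM _ fun g => ?_
      simp only [map_sub, Finset.sum_sub_distrib, hMw, ← key w' hw', hfw]
      rw [hf, sub_self]
    funext h
    refine Subtype.ext ?_
    show (f h : V) = _
    rw [← hfw, sub_eq_zero.1 (congrFun h0 h)]

theorem free_of_split {k V H : Type*} [Field k] [AddCommGroup V] [Module k V] [Monoid H] [Fintype H]
    (π : H →* Module.End k V) (P Q : Submodule k V) (hPQ : IsCompl P Q)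
    (hP : ∀ h, ∀ v ∈ P, π h v ∈ P) (hQ : ∀ h, ∀ v ∈ Q, π h v ∈ Q)
    (hfP : ∃ W : Submodule k P, ∀ v : P, ∃! f : H → W, ∑ h, π h ((f h : P) : V) = v)
    (hfQ : ∃ W : Submodule k Q, ∀ v : Q, ∃! f : H → W, ∑ h, π h ((f h : Q) : V) = v) : Free π := by
  obtain ⟨W₁, h₁⟩ := hfP
  obtain ⟨W₂, h₂⟩ := hfQ
  refine ⟨W₁.map P.subtype ⊔ W₂.map Q.subtype, fun v => ?_⟩
  obtain ⟨p, hp, q, hq, rfl⟩ := Submodule.mem_sup.1 (hPQ.sup_eq_top ▸ Submodule.mem_top (x := v))
  obtain ⟨f₁, hf₁, hu₁⟩ := h₁ ⟨p, hp⟩
  obtain ⟨f₂, hf₂, hu₂⟩ := h₂ ⟨q, hq⟩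
  refine ⟨fun h => ⟨((f₁ h : P) : V) + ((f₂ h : Q) : V), Submodule.add_mem_sup
    (Submodule.mem_map_of_mem (f₁ h).2) (Submodule.mem_map_of_mem (f₂ h).2)⟩, ?_, ?_⟩
  · show ∑ h, π h (((f₁ h : P) : V) + ((f₂ h : Q) : V)) = p + q
    simp only [map_add, Finset.sum_add_distrib]
    exact congrArg₂ (· + ·) hf₁ hf₂
  · intro f hf
    have hdec : ∀ h, ∃ (a : W₁) (b : W₂), ((a : P) : V) + ((b : Q) : V) = (f h : V) := fun h => by
      obtain ⟨a, ha, b, hb, hab⟩ := Submodule.mem_sup.1 (f h).2
      obtain ⟨a, ha', rfl⟩ := ha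
      obtain ⟨b, hb', rfl⟩ := hb
      exact ⟨⟨a, ha'⟩, ⟨b, hb'⟩, hab⟩
    choose a b hab using hdec
    have hsum : (∑ h, π h ((a h : P) : V)) + ∑ h, π h ((b h : Q) : V) = p + q := by
      rw [← Finset.sum_add_distrib, ← hf]
      exact Finset.sum_congr rfl fun h _ => by rw [← map_add, hab]
    have hA : ∑ h, π h ((a h : P) : V) ∈ P := P.sum_mem fun h _ => hP h _ (a h : P).2
    have hB : ∑ h, π h ((b h : Q) : V) ∈ Q := Q.sum_mem fun h _ => hQ h _ (b h : Q).2
    have hdiff : (∑ h, π h ((a h : P) : V)) - p = q - ∑ h, π h ((b h : Q) : V) :=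
      sub_eq_sub_iff_add_eq_add.2 (hsum.trans (add_comm p q))
    have hz : (∑ h, π h ((a h : P) : V)) - p = 0 :=
      Submodule.disjoint_def.1 hPQ.disjoint _ (P.sub_mem hA hp) (hdiff ▸ Q.sub_mem hq hB)
    have ea : a = f₁ := hu₁ a (sub_eq_zero.1 hz)
    have eb : b = f₂ := hu₂ b (by
      rw [hz, eq_comm, sub_eq_zero] at hdiff
      exact hdiff.symm)
    funext h
    refine Subtype.ext ?_
    show (f h : V) = _
    rw [← hab, ea, eb]

theorem free_of_frobenius {k A : Type*} [Field k] [Group A] [Finite A] (F H : Subgroup A) [F.Normal]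
    (hnil : Group.IsNilpotent F) [Fintype H]
    (hfpf : ∀ h ∈ H, h ≠ 1 → ∀ f ∈ F, h * f * h⁻¹ = f → f = 1) (d : ℕ) :
    ∀ (V : Type _) [AddCommGroup V] [Module k V] [FiniteDimensional k V] (ρ : A →* Module.End k V),
      Module.finrank k V = d → (∀ v : V, (∀ f ∈ F, ρ f v = v) → v = 0) → Free (ρ.comp H.subtype) := by
  classical
  induction d using Nat.strong_induction_on with
  | _ d ih =>
  intro V _ _ _ ρ hd hC
  rcases subsingleton_or_nontrivial V with hV | hV
  · refine ⟨⊥, fun v => ⟨fun _ => 0, by simp [Subsingleton.elim v 0], fun f _ => funext fun h => Subsingleton.elim _ _⟩⟩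
  set ρu : A →* (Module.End k V)ˣ := ρ.toHomUnits with hρu
  set Fb := F.map ρu with hFb
  have : Finite Fb := Finite.of_surjective (ρu.subgroupMap F) (ρu.subgroupMap_surjective F)
  have hFbnil : Group.IsNilpotent Fb := by
    have := hnil
    exact Group.nilpotent_of_surjective (ρu.subgroupMap F) (ρu.subgroupMap_surjective F)
  -- a prime invertible in `k`
  obtain ⟨q, hq, hqd, hqk⟩ : ∃ q : ℕ, q.Prime ∧ q ∣ Nat.card Fb ∧ (q : k) ≠ 0 := by
    by_contra hno
    push Not at hno
    obtain ⟨v, hv⟩ := exists_ne (0 : V)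
    refine hv (hC v ?_) |>.elim
    intro f hf
    by_contra hne
    have hne1 : Nat.card Fb ≠ 1 := fun h1 => hne (by
      have : ρu f ∈ Fb := ⟨f, hf, rfl⟩
      rw [Subgroup.card_eq_one.1 h1, Subgroup.mem_bot] at this
      rw [show ρ f = 1 from congrArg Units.val this]
      rfl)
    obtain ⟨p, hp, hpd⟩ := Nat.exists_prime_and_dvd hne1
    have := Fact.mk hp
    have hchar : CharP k p := (CharP.charP_iff_prime_eq_zero hp).2 (hno p hp hpd)
    have hpg : IsPGroup p Fb := IsPGroup.of_card (n := (Nat.card Fb).primeFactorsList.length)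
      (Nat.eq_prime_pow_of_unique_prime_dvd Nat.card_pos.ne' fun {r} hr hrd => by
        have h0 := hno r hr hrd
        rw [CharP.cast_eq_zero_iff k p] at h0
        exact ((Nat.prime_dvd_prime_iff_eq hp hr).1 h0).symm)
    let τ : Representation k Fb V := (Units.coeHom _).comp Fb.subtype
    obtain ⟨w, -, hw0, hw⟩ := Lib.Perm.exists_fixed_of_pGroup (K := k) hpg τ hv ⊤ trivial fun _ _ _ => trivial
    exact hw0 (hC w fun g hg => hw ⟨ρu g, g, hg, rfl⟩)
  have := Fact.mk hq
  -- a central elementary subgroup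
  obtain ⟨Q⟩ : Nonempty (Sylow q Fb) := inferInstance
  have hsyl : ∀ (r : ℕ) [Fact r.Prime] (R : Sylow r Fb), (R : Subgroup Fb).Normal := fun r _ R =>
    haveI := hFbnil
    Sylow.normal_of_normalizerCondition Group.normalizerCondition_of_isNilpotent R
  have hQne : Nontrivial (Q : Subgroup Fb) := by
    rw [← Finite.one_lt_card_iff_nontrivial]
    exact hq.one_lt.trans_le (Nat.le_of_dvd Nat.card_pos (Q.dvd_card_of_dvd_card hqd))
  obtain ⟨z, hzne⟩ := @exists_ne _ (IsPGroup.center_nontrivial Q.isPGroup') (1 : Subgroup.center (Q : Subgroup Fb))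
  obtain ⟨z₁, hz₁, hz₁o⟩ : ∃ z₁ : Fb, z₁ ∈ Subgroup.center Fb ∧ orderOf z₁ = q := by
    have hzc : ((z : (Q : Subgroup Fb)) : Fb) ∈ Subgroup.center Fb := by
      set z' := ((z : (Q : Subgroup Fb)) : Fb) with hz'
      have htop : Subgroup.centralizer ({z'} : Set Fb) = ⊤ := by
        rw [← Subgroup.index_eq_one]
        by_contra h1
        obtain ⟨r, hr, hrd⟩ := Nat.exists_prime_and_dvd h1
        have := Fact.mk hr
        obtain ⟨R⟩ : Nonempty (Sylow r Fb) := inferInstance
        refine R.not_dvd_index (hrd.trans (Subgroup.index_dvd_of_le fun y hy => ?_))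
        rw [Subgroup.mem_centralizer_singleton_iff]
        by_cases hrq : r = q
        · subst hrq
          have := hsyl r Q
          have hRQ : R = Q := by
            have := Sylow.unique_of_normal Q this
            exact Subsingleton.elim _ _
          subst hRQ
          exact congrArg Subtype.val (Subgroup.mem_center_iff.1 z.2 ⟨y, hy⟩)
        · exact (Subgroup.commute_of_normal_of_disjoint _ _ (hsyl r R) (hsyl q Q)
            (IsPGroup.disjoint_of_ne _ _ hrq _ _ R.isPGroup' Q.isPGroup') y z' hy (z : (Q : Subgroup Fb)).2).eq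
      rw [Subgroup.mem_center_iff]
      intro g
      exact Subgroup.mem_centralizer_singleton_iff.1 (htop ▸ Subgroup.mem_top g)
    obtain ⟨j, hj⟩ := IsPGroup.iff_orderOf.1 Q.isPGroup' (z : (Q : Subgroup Fb))
    rcases j with _ | j
    · exact absurd (Subtype.ext (orderOf_eq_one_iff.1 (hj.trans (pow_zero q)))) hzne
    refine ⟨((z : (Q : Subgroup Fb)) : Fb) ^ q ^ j, Subgroup.pow_mem _ hzc _, ?_⟩
    rw [orderOf_pow_of_dvd (pow_ne_zero _ hq.ne_zero) (by rw [Subgroup.orderOf_coe, hj]; exact pow_dvd_pow q (by omega)),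
      Subgroup.orderOf_coe, hj, pow_succ, Nat.mul_div_cancel_left _ (pow_pos hq.pos _)]
  let U : Subgroup (Module.End k V)ˣ :=
    { carrier := {u | u ∈ Fb ∧ (∀ w ∈ Fb, u * w = w * u) ∧ u ^ q = 1}
      one_mem' := ⟨Fb.one_mem, fun w _ => by simp, one_pow q⟩
      mul_mem' := by
        rintro a b ⟨ha, hac, haq⟩ ⟨hb, hbc, hbq⟩
        refine ⟨Fb.mul_mem ha hb, fun w hw => ?_, ?_⟩
        · exact (Commute.mul_left (hac w hw) (hbc w hw)).eq
        · rw [(show Commute a b from hac b hb).mul_pow, haq, hbq, one_mul]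
      inv_mem' := by
        rintro a ⟨ha, hac, haq⟩
        exact ⟨Fb.inv_mem ha, fun w hw => (Commute.inv_left (hac w hw)).eq, by rw [inv_pow, haq, inv_one]⟩ }
  have hmemU : ∀ u, u ∈ U ↔ u ∈ Fb ∧ (∀ w ∈ Fb, u * w = w * u) ∧ u ^ q = 1 := fun u => Iff.rfl
  let : CommGroup U :=
    { (inferInstance : Group U) with
      mul_comm := fun a b => Subtype.ext (a.2.2.1 b b.2.1) }
  have : Finite U := Finite.of_injective (fun u : U => (⟨u.1, u.2.1⟩ : Fb)) fun a b h =>
    Subtype.ext (congrArg (fun t : Fb => (t : (Module.End k V)ˣ)) h)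
  have : Fintype U := Fintype.ofFinite U
  have hUinv : ∀ a : A, ∀ u ∈ U, ρu a * u * (ρu a)⁻¹ ∈ U := by
    intro a u hu
    have hFa : ∀ b : A, ∀ w ∈ Fb, ρu b * w * (ρu b)⁻¹ ∈ Fb := by
      rintro b _ ⟨f, hf, rfl⟩
      exact ⟨b * f * b⁻¹, (inferInstance : F.Normal).conj_mem f hf b, by simp⟩
    refine ⟨hFa a u hu.1, fun w hw => ?_, by rw [conj_pow, hu.2.2, mul_one, mul_inv_cancel]⟩
    have hw' : (ρu a)⁻¹ * w * ρu a ∈ Fb := by
      have := hFa a⁻¹ w hw
      rwa [map_inv, inv_inv] at this
    calc ρu a * u * (ρu a)⁻¹ * w = ρu a * (u * ((ρu a)⁻¹ * w * ρu a)) * (ρu a)⁻¹ := by group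
      _ = ρu a * (((ρu a)⁻¹ * w * ρu a) * u) * (ρu a)⁻¹ := by rw [hu.2.1 _ hw']
      _ = w * (ρu a * u * (ρu a)⁻¹) := by group
  have hcardU : ∃ m : ℕ, Fintype.card U = q ^ m := by
    have hp : IsPGroup q U := fun u => ⟨1, Subtype.ext (by rw [pow_one]; exact u.2.2.2)⟩
    obtain ⟨m, hm⟩ := IsPGroup.iff_card.1 hp
    exact ⟨m, by rw [← Nat.card_eq_fintype_card, hm]⟩
  have hUk : (Fintype.card U : k) ≠ 0 := by
    obtain ⟨m, hm⟩ := hcardU
    rw [hm, Nat.cast_pow]
    exact pow_ne_zero _ hqk
  set η : U →* Module.End k V := (Units.coeHom _).comp U.subtype with hη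
  -- the averaging projection
  set E : Module.End k V := (Fintype.card U : k)⁻¹ • ∑ u, η u with hE
  have hEu : ∀ u : U, η u * E = E := fun u => by
    rw [hE, mul_smul_comm, Finset.mul_sum]
    congr 1
    exact Fintype.sum_equiv (Equiv.mulLeft u) _ _ fun w => (map_mul η u w).symm
  set P := LinearMap.range E with hP
  set K := LinearMap.ker E with hK
  have hPfix : ∀ v ∈ P, ∀ u : U, η u v = v := by
    rintro _ ⟨v, rfl⟩ u
    rw [← Module.End.mul_apply, hEu]
  have hEfix : ∀ v, (∀ u : U, η u v = v) → E v = v := fun v hv => by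
    simp only [hE, LinearMap.smul_apply, LinearMap.sum_apply, hv, Finset.sum_const, Finset.card_univ]
    rw [← Nat.cast_smul_eq_nsmul k, inv_smul_smul₀ hUk]
  have hEA : ∀ a : A, ρ a * E = E * ρ a := by
    intro a
    rw [hE, mul_smul_comm, smul_mul_assoc, Finset.mul_sum, Finset.sum_mul]
    congr 1
    refine Fintype.sum_equiv (show U ≃ U from
      { toFun := fun u => (⟨ρu a * u * (ρu a)⁻¹, hUinv a u u.2⟩ : U)
        invFun := fun u => (⟨ρu a⁻¹ * u * (ρu a⁻¹)⁻¹, hUinv a⁻¹ u u.2⟩ : U)
        left_inv := fun u => Subtype.ext (by simp [mul_assoc])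
        right_inv := fun u => Subtype.ext (by simp [mul_assoc]) }) _ _ fun u => ?_
    show ρ a * ((u : (Module.End k V)ˣ) : Module.End k V) =
      ((ρu a * u * (ρu a)⁻¹ : (Module.End k V)ˣ) : Module.End k V) * ((ρu a : (Module.End k V)ˣ) : Module.End k V)
    rw [← Units.val_mul, inv_mul_cancel_right, Units.val_mul]
    rfl
  have hPA : ∀ a, ∀ v ∈ P, ρ a v ∈ P := by
    rintro a _ ⟨v, rfl⟩
    exact ⟨ρ a v, by rw [← Module.End.mul_apply, ← hEA]; rfl⟩
  have hKA : ∀ a, ∀ v ∈ K, ρ a v ∈ K := fun a v hv => by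
    rw [hK, LinearMap.mem_ker, ← Module.End.mul_apply, ← hEA, Module.End.mul_apply, LinearMap.mem_ker.1 hv, map_zero]
  have hPK : IsCompl P K := by
    refine ⟨Submodule.disjoint_def.2 fun v hv hv' => ?_, codisjoint_iff.2 (eq_top_iff.2 fun v _ => ?_)⟩
    · rw [← hEfix v fun u => hPfix v hv u]
      exact hv'
    · refine Submodule.mem_sup.2 ⟨E v, ⟨v, rfl⟩, v - E v, ?_, add_sub_cancel _ _⟩
      rw [hK, LinearMap.mem_ker, map_sub, hEfix _ fun u => hPfix _ ⟨v, rfl⟩ u, sub_self]
  let res : ∀ Y : Submodule k V, (∀ a, ∀ v ∈ Y, ρ a v ∈ Y) → (A →* Module.End k Y) := fun Y hY =>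
    { toFun := fun a => (ρ a).restrict (hY a)
      map_one' := LinearMap.ext fun v => Subtype.ext (by simp [LinearMap.restrict_apply])
      map_mul' := fun a b => LinearMap.ext fun v => Subtype.ext (by simp [LinearMap.restrict_apply]) }
  have conv : ∀ (Y : Submodule k V) (hY : ∀ a, ∀ v ∈ Y, ρ a v ∈ Y), Free ((res Y hY).comp H.subtype) →
      ∃ W : Submodule k Y, ∀ v : Y, ∃! f : H → W, ∑ h, (ρ.comp H.subtype) h ((f h : Y) : V) = v := by
    rintro Y hY ⟨W, hW⟩
    refine ⟨W, fun v => ?_⟩
    have e : ∀ f : H → W, (∑ h, (res Y hY).comp H.subtype h (f h : Y) = v) ↔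
        ∑ h, (ρ.comp H.subtype) h ((f h : Y) : V) = v := fun f => by
      rw [Subtype.ext_iff, AddSubmonoidClass.coe_finsetSum]
      rfl
    obtain ⟨f, hf, hu⟩ := hW v
    exact ⟨f, (e f).1 hf, fun g hg => hu g ((e g).2 hg)⟩
  refine free_of_split _ P K hPK (fun h => hPA _) (fun h => hKA _) (conv P hPA ?_) (conv K hKA ?_)
  · refine ih _ ?_ P (res P hPA) rfl fun v hv => Subtype.ext (hC v fun f hf => congrArg Subtype.val (hv f hf))
    have hlt : P < ⊤ := by
      refine lt_top_iff_ne_top.2 fun htop => ?_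
      have hzU : (z₁ : (Module.End k V)ˣ) ∈ U := ⟨z₁.2, fun w hw =>
        (congrArg Subtype.val (Subgroup.mem_center_iff.1 hz₁ ⟨w, hw⟩)).symm, by
          rw [← SubmonoidClass.coe_pow, ← hz₁o, pow_orderOf_eq_one]; rfl⟩
      have h1 : (z₁ : (Module.End k V)ˣ) = 1 := Units.ext (LinearMap.ext fun v =>
        hPfix v (htop ▸ Submodule.mem_top) ⟨_, hzU⟩)
      have : z₁ = 1 := Subtype.ext h1
      rw [this, orderOf_one] at hz₁o
      exact hq.ne_one hz₁o.symm
    exact hd ▸ Submodule.finrank_lt hlt.ne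
  · -- the abelian subgroup moves everything
    let σ : H →* MulAut U :=
      { toFun := fun h =>
          { toFun := fun u => ⟨ρu h * u * (ρu h)⁻¹, hUinv h u u.2⟩
            invFun := fun u => ⟨ρu (h : A)⁻¹ * u * (ρu (h : A)⁻¹)⁻¹, hUinv _ u u.2⟩
            left_inv := fun u => Subtype.ext (by simp [mul_assoc])
            right_inv := fun u => Subtype.ext (by simp [mul_assoc])
            map_mul' := fun u w => Subtype.ext (by simp [mul_assoc]) }
        map_one' := MulEquiv.ext fun u => Subtype.ext (by simp)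
        map_mul' := fun g h => MulEquiv.ext fun u => Subtype.ext (by simp [mul_assoc]) }
    have hUK : ∀ (u : U), ∀ v ∈ K, η u v ∈ K := by
      intro u v hv
      obtain ⟨f, hf, hfu⟩ := u.2.1
      have : η u = ρ f := by
        show ((u : (Module.End k V)ˣ) : Module.End k V) = _
        rw [← hfu]
        rfl
      rw [this]
      exact hKA f v hv
    let ηK : U →* Module.End k K :=
      { toFun := fun u => (η u).restrict (hUK u)
        map_one' := LinearMap.ext fun v => Subtype.ext (by simp [LinearMap.restrict_apply])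
        map_mul' := fun u w => LinearMap.ext fun v => Subtype.ext (by simp [LinearMap.restrict_apply]) }
    refine free_of_abelian ηK σ _ (fun h u => LinearMap.ext fun v => Subtype.ext ?_) ?_ hUk fun h hh u hu => ?_
    · show ρ h (((u : (Module.End k V)ˣ) : Module.End k V) (v : V)) =
        ((ρu h * u * (ρu h)⁻¹ : (Module.End k V)ˣ) : Module.End k V) (((ρu h : (Module.End k V)ˣ) : Module.End k V) v)
      rw [← Module.End.mul_apply, ← Module.End.mul_apply, ← Units.val_mul, inv_mul_cancel_right, Units.val_mul]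
      rfl
    · refine LinearMap.ext fun v => Subtype.ext ?_
      have hv : E (v : V) = 0 := LinearMap.mem_ker.1 v.2
      rw [hE, LinearMap.smul_apply, smul_eq_zero_iff_right (inv_ne_zero hUk), LinearMap.sum_apply] at hv
      rw [LinearMap.sum_apply, AddSubmonoidClass.coe_finsetSum]
      exact hv
    · -- lift to a fixed point of `h` in `F`
      obtain ⟨f, hf, hfu⟩ := u.2.1
      set N := F ⊓ ρu.ker with hN
      have : N.Normal := by rw [hN]; infer_instance
      have hhu : ρu h * (u : (Module.End k V)ˣ) * (ρu h)⁻¹ = u := congrArg Subtype.val hu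
      have hc : f⁻¹ * ((h : A) * f * (h : A)⁻¹) ∈ N := by
        refine ⟨F.mul_mem (F.inv_mem hf) ((inferInstance : F.Normal).conj_mem f hf _), MonoidHom.mem_ker.2 ?_⟩
        rw [map_mul, map_mul, map_mul, map_inv, map_inv, hfu, hhu, inv_mul_cancel]
      let g : N → N := fun n => ⟨(n : A) * ((h : A) * n * (h : A)⁻¹)⁻¹,
        N.mul_mem n.2 (N.inv_mem ((inferInstance : N.Normal).conj_mem n n.2 _))⟩
      have hg : Function.Surjective g := Finite.injective_iff_surjective.1 fun m n hmn => by
        have e : (m : A) * ((h : A) * m * (h : A)⁻¹)⁻¹ = (n : A) * ((h : A) * n * (h : A)⁻¹)⁻¹ :=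
          congrArg Subtype.val hmn
        have e1 : (h : A) * ((n : A)⁻¹ * m) * (h : A)⁻¹ = (n : A)⁻¹ * m := by
          calc (h : A) * ((n : A)⁻¹ * m) * (h : A)⁻¹
              = ((h : A) * (n : A) * (h : A)⁻¹)⁻¹ * ((h : A) * m * (h : A)⁻¹) := by group
            _ = (n : A)⁻¹ * ((n : A) * ((h : A) * n * (h : A)⁻¹)⁻¹) * ((h : A) * m * (h : A)⁻¹) := by group
            _ = (n : A)⁻¹ * ((m : A) * ((h : A) * m * (h : A)⁻¹)⁻¹) * ((h : A) * m * (h : A)⁻¹) := by rw [e]
            _ = _ := by group
        exact Subtype.ext (inv_mul_eq_one.1 (hfpf h h.2 (fun e => hh (Subtype.ext e)) _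
          (F.mul_mem (F.inv_mem n.2.1) m.2.1) e1)).symm
      obtain ⟨n, hn⟩ := hg ⟨_, hc⟩
      have e : (n : A) * ((h : A) * n * (h : A)⁻¹)⁻¹ = f⁻¹ * ((h : A) * f * (h : A)⁻¹) := congrArg Subtype.val hn
      have e1 : (h : A) * (f * n) * (h : A)⁻¹ = f * n := by
        calc (h : A) * (f * n) * (h : A)⁻¹
            = f * (f⁻¹ * ((h : A) * f * (h : A)⁻¹)) * ((h : A) * n * (h : A)⁻¹) := by group
          _ = f * ((n : A) * ((h : A) * n * (h : A)⁻¹)⁻¹) * ((h : A) * n * (h : A)⁻¹) := by rw [e]
          _ = _ := by group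
      have e2 := hfpf h h.2 (fun e => hh (Subtype.ext e)) _ (F.mul_mem hf n.2.1) e1
      refine Subtype.ext ?_
      show (u : (Module.End k V)ˣ) = 1
      rw [← hfu, show f = (f * n) * (n : A)⁻¹ by group, e2, one_mul, map_inv, MonoidHom.mem_ker.1 n.2.2, inv_one]

end Cfsg.Agent.Struct4.FreeComplement
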