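import Mathlib

/-! The group `GL₃(2)` through an explicit model of `3 × 3` matrices over two elements. -/

set_option autoImplicit false

open Matrix

namespace Cfsg.Agent.OrderType

/-- A `3 × 3` Boolean matrix. -/
@[ext] structure M3 where
  m11 : Bool
  m12 : Bool
  m13 : Bool
  m21 : Bool
  m22 : Bool
  m23 : Bool
  m31 : Bool
  m32 : Bool
  m33 : Bool
deriving DecidableEq

/-- Entries of a Boolean matrix as a nested tuple. -/
def M3.equivTuple : M3 ≃ (Bool × Bool × Bool) × (Bool × Bool × Bool) × (Bool × Bool × Bool) where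
  toFun x := ((x.m11, x.m12, x.m13), (x.m21, x.m22, x.m23), (x.m31, x.m32, x.m33))
  invFun p := ⟨p.1.1, p.1.2.1, p.1.2.2, p.2.1.1, p.2.1.2.1, p.2.1.2.2, p.2.2.1, p.2.2.2.1, p.2.2.2.2⟩
  left_inv _ := rfl
  right_inv _ := rfl

instance : Fintype M3 := Fintype.ofEquiv _ M3.equivTuple.symm

/-- The product of Boolean matrices. -/
def M3.mul (x y : M3) : M3 :=
  ⟨((x.m11 && y.m11) ^^ (x.m12 && y.m21)) ^^ (x.m13 && y.m31),
    ((x.m11 && y.m12) ^^ (x.m12 && y.m22)) ^^ (x.m13 && y.m32),
    ((x.m11 && y.m13) ^^ (x.m12 && y.m23)) ^^ (x.m13 && y.m33),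
    ((x.m21 && y.m11) ^^ (x.m22 && y.m21)) ^^ (x.m23 && y.m31),
    ((x.m21 && y.m12) ^^ (x.m22 && y.m22)) ^^ (x.m23 && y.m32),
    ((x.m21 && y.m13) ^^ (x.m22 && y.m23)) ^^ (x.m23 && y.m33),
    ((x.m31 && y.m11) ^^ (x.m32 && y.m21)) ^^ (x.m33 && y.m31),
    ((x.m31 && y.m12) ^^ (x.m32 && y.m22)) ^^ (x.m33 && y.m32),
    ((x.m31 && y.m13) ^^ (x.m32 && y.m23)) ^^ (x.m33 && y.m33)⟩

/-- The identity. -/
def M3.one : M3 := ⟨true, false, false, false, true, false, false, false, true⟩

/-- A Boolean as an element of `ZMod 2`. -/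
def bz : Bool → ZMod 2
  | true => 1
  | false => 0

theorem bz_entry : ∀ a b c d e f : Bool,
    bz ((a && b) != ((c && d) != (e && f))) = bz a * bz b + bz c * bz d + bz e * bz f := by decide

/-- The underlying matrix. -/
def M3.toMat (x : M3) : Matrix (Fin 3) (Fin 3) (ZMod 2) :=
  !![bz x.m11, bz x.m12, bz x.m13; bz x.m21, bz x.m22, bz x.m23; bz x.m31, bz x.m32, bz x.m33]

theorem M3.toMat_mul (x y : M3) : (x.mul y).toMat = x.toMat * y.toMat := by
  ext i j
  fin_cases i <;> fin_cases j <;> simp [M3.toMat, M3.mul, Matrix.mul_apply, Fin.sum_univ_three, bz_entry]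

theorem M3.toMat_one : M3.one.toMat = 1 := by decide +kernel

theorem bz_injective : Function.Injective bz := by decide

theorem M3.toMat_injective : Function.Injective M3.toMat := fun x y e => by
  apply M3.ext
  · exact bz_injective (congrFun (congrFun e 0) 0)
  · exact bz_injective (congrFun (congrFun e 0) 1)
  · exact bz_injective (congrFun (congrFun e 0) 2)
  · exact bz_injective (congrFun (congrFun e 1) 0)
  · exact bz_injective (congrFun (congrFun e 1) 1)
  · exact bz_injective (congrFun (congrFun e 1) 2)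
  · exact bz_injective (congrFun (congrFun e 2) 0)
  · exact bz_injective (congrFun (congrFun e 2) 1)
  · exact bz_injective (congrFun (congrFun e 2) 2)

theorem M3.toMat_bijective : Function.Bijective M3.toMat :=
  M3.toMat_injective.bijective_of_nat_card_le (le_of_eq (by
    rw [Nat.card_congr M3.equivTuple]
    simp [Matrix, Nat.card_fun]))

/-- Powers by repeated squaring. -/
def M3.pw : ℕ → M3 → ℕ → M3
  | 0, _, _ => M3.one
  | f + 1, m, n =>
    if n = 0 then M3.one
    else if n % 2 = 0 then M3.pw f (m.mul m) (n / 2)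
    else m.mul (M3.pw f (m.mul m) (n / 2))

theorem M3.toMat_pw : ∀ (f : ℕ) (m : M3) (n : ℕ), n < 2 ^ f → (M3.pw f m n).toMat = m.toMat ^ n
  | 0, m, n, h => by
    obtain rfl : n = 0 := by simpa using h
    rw [M3.pw, M3.toMat_one, pow_zero]
  | f + 1, m, n, h => by
    have h2 : n / 2 < 2 ^ f := by rw [pow_succ] at h; omega
    have e := Nat.div_add_mod n 2
    rw [M3.pw]
    split_ifs with h0 h1
    · rw [h0, M3.toMat_one, pow_zero]
    · rw [M3.toMat_pw f _ _ h2, M3.toMat_mul, ← sq, ← pow_mul, show 2 * (n / 2) = n by omega]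
    · rw [M3.toMat_mul, M3.toMat_pw f _ _ h2, M3.toMat_mul, ← sq, ← pow_mul, ← pow_succ',
        show 2 * (n / 2) + 1 = n by omega]

/-- The number of elements with `mⁿ = 1`. -/
def l7 (n : ℕ) : ℕ := [(1, 1), (2, 21), (3, 56), (4, 42), (7, 48)].foldr
  (fun p t => (if p.1 ∣ n then p.2 else 0) + t) 0

theorem pw_count : ∀ n ∈ [1, 2, 3, 4, 6, 7, 12, 14, 21, 28, 42, 84],
    (Finset.univ.filter fun m : M3 => M3.pw 7 m n = M3.one).card = l7 n := by decide +kernel

theorem card_pow_GL (n : ℕ) (hn : n ∣ 84) :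
    Nat.card {g : GL (Fin 3) (ZMod 2) // g ^ n = 1} = l7 n := by
  classical
  have h0 : n ≠ 0 := by rintro rfl; simp at hn
  have e1 : {g : GL (Fin 3) (ZMod 2) // g ^ n = 1} ≃
      {m : Matrix (Fin 3) (Fin 3) (ZMod 2) // m ^ n = 1} :=
    { toFun := fun g => ⟨(g.1 : Matrix (Fin 3) (Fin 3) (ZMod 2)), by
        rw [← Units.val_pow_eq_pow_val, g.2, Units.val_one]⟩
      invFun := fun m => ⟨Units.ofPowEqOne m.1 n m.2 h0, Units.pow_ofPowEqOne _ _⟩
      left_inv := fun g => Subtype.ext (Units.ext rfl)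
      right_inv := fun m => Subtype.ext rfl }
  have hlt : n < 2 ^ 7 := by
    have := Nat.le_of_dvd (by norm_num) hn
    omega
  have e2 : {m : M3 // M3.pw 7 m n = M3.one} ≃
      {m : Matrix (Fin 3) (Fin 3) (ZMod 2) // m ^ n = 1} :=
    (Equiv.ofBijective _ M3.toMat_bijective).subtypeEquiv fun m => by
      rw [Equiv.ofBijective_apply, ← M3.toMat_pw 7 m n hlt, ← M3.toMat_one]
      exact M3.toMat_injective.eq_iff.symm
  rw [Nat.card_congr e1, ← Nat.card_congr e2, Nat.card_eq_fintype_card, Fintype.card_subtype]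
  refine pw_count n ?_
  have hm : n ∈ Nat.divisors 84 := Nat.mem_divisors.2 ⟨hn, by norm_num⟩
  have hd : ∀ k ∈ Nat.divisors 84, k ∈ [1, 2, 3, 4, 6, 7, 12, 14, 21, 28, 42, 84] := by decide +kernel
  exact hd n hm

theorem not_solvable_GL : ¬ Group.IsSolvable (GL (Fin 3) (ZMod 2)) := by
  intro hs
  let u (a b : M3) (h : a.mul b = M3.one ∧ b.mul a = M3.one) : GL (Fin 3) (ZMod 2) :=
    ⟨a.toMat, b.toMat, by rw [← M3.toMat_mul, h.1, M3.toMat_one],
      by rw [← M3.toMat_mul, h.2, M3.toMat_one]⟩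
  set x := u ⟨false, false, true, false, true, false, true, false, false⟩ ⟨false, false, true, false, true, false, true, false, false⟩ (by decide) with hx
  set g := u ⟨true, true, false, true, true, true, true, false, false⟩ ⟨false, false, true, true, false, true, true, true, false⟩ (by decide) with hg
  set h := u ⟨true, true, false, true, false, false, false, true, true⟩ ⟨false, true, false, true, true, false, true, true, true⟩ (by decide) with hh
  have hc : (g * x * g⁻¹) * (h * x * h⁻¹) * (g * x * g⁻¹)⁻¹ * (h * x * h⁻¹)⁻¹ = x := by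
    refine Units.ext ?_
    decide +kernel
  have hmem : ∀ k, x ∈ derivedSeries (GL (Fin 3) (ZMod 2)) k := by
    intro k
    induction k with
    | zero => exact Subgroup.mem_top x
    | succ k ih =>
      rw [← hc]
      rw [← commutatorElement_def]
      exact Subgroup.commutator_mem_commutator
        ((derivedSeries_normal _ k).conj_mem x ih g) ((derivedSeries_normal _ k).conj_mem x ih h)
  obtain ⟨k, hk⟩ := hs.solvable
  have hx1 : x = 1 := by
    have := hmem k
    rwa [hk, Subgroup.mem_bot] at this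
  revert hx1
  intro hx1
  have := congrArg (fun z : GL (Fin 3) (ZMod 2) => (z : Matrix (Fin 3) (Fin 3) (ZMod 2))) hx1
  revert this
  decide +kernel

end Cfsg.Agent.OrderType
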