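import Mathlib
import Cfsg.Agent.Lib.FPF.Thompson
import Cfsg.Agent.Lib.FPF.FixedPointFree

/-! Groups all of whose Sylow subgroups are maximal and not normal are solvable. -/

set_option autoImplicit false

open Subgroup

namespace Cfsg.Agent.Struct4

theorem isSolvable_of_isPGroup {p : ℕ} [Fact p.Prime] {Q : Type*} [Group Q] [Finite Q]
    (h : IsPGroup p Q) : Group.IsSolvable Q :=
  have := h.isNilpotent
  inferInstance

theorem solvable_of_maximal_sylows {X : Type*} [Group X] [Finite X]
    (h : ∀ (p : ℕ) [Fact p.Prime], p ∣ Nat.card X → ∀ P : Sylow p X,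
      IsCoatom (P : Subgroup X) ∧ ¬ (P : Subgroup X).Normal) : Group.IsSolvable X := by
  classical
  have hnorm : ∀ (p : ℕ) [Fact p.Prime] (K : Subgroup X), K.Normal → IsPGroup p K → K ≠ ⊥ →
      Group.IsSolvable X := by
    intro p _ K hKn hK hK1
    by_cases hall : ∀ q : ℕ, q.Prime → q ∣ Nat.card X → q = p
    · refine isSolvable_of_isPGroup (p := p) (IsPGroup.iff_card.2 ⟨(Nat.card X).primeFactorsList.length, ?_⟩)
      exact Nat.eq_prime_pow_of_unique_prime_dvd Nat.card_pos.ne' fun {q} hq hqd => hall q hq hqd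
    push Not at hall
    obtain ⟨q, hq, hqd, hqp⟩ := hall
    have := Fact.mk hq
    let Q : Sylow q X := Classical.arbitrary _
    obtain ⟨hQ, -⟩ := h q hqd Q
    have htop : K ⊔ (Q : Subgroup X) = ⊤ := by
      rcases hQ.le_iff.1 (le_sup_right : (Q : Subgroup X) ≤ K ⊔ Q) with e | e
      · exact e
      · exfalso
        have hle : K ≤ Q := e ▸ le_sup_left
        have := hK.disjoint_of_ne p q (Ne.symm hqp) K Q Q.isPGroup'
        exact hK1 (disjoint_self.1 (this.mono_right hle))
    have hs : Function.Surjective ((QuotientGroup.mk' K).comp (Q : Subgroup X).subtype) := by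
      intro y
      obtain ⟨x, rfl⟩ := QuotientGroup.mk'_surjective K y
      obtain ⟨a, ha, b, hb, rfl⟩ := Subgroup.mem_sup_of_normal_left.1 (htop ▸ Subgroup.mem_top x)
      refine ⟨⟨b, hb⟩, ?_⟩
      rw [MonoidHom.comp_apply, map_mul, show QuotientGroup.mk' K a = 1 from (QuotientGroup.eq_one_iff a).2 ha,
        one_mul]
      rfl
    have h1 : Group.IsSolvable K := isSolvable_of_isPGroup hK
    have h2 : Group.IsSolvable (Q : Subgroup X) := isSolvable_of_isPGroup Q.isPGroup'
    have h3 : Group.IsSolvable (X ⧸ K) := Group.isSolvable_of_surjective hs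
    exact Group.isSolvable_of_ker_le_range K.subtype (QuotientGroup.mk' K) (by simp)
  by_cases h2 : ∀ q : ℕ, q.Prime → q ∣ Nat.card X → q = 2
  · exact isSolvable_of_isPGroup (p := 2) (IsPGroup.iff_card.2 ⟨_,
      Nat.eq_prime_pow_of_unique_prime_dvd Nat.card_pos.ne' fun {q} hq hqd => h2 q hq hqd⟩)
  push Not at h2
  obtain ⟨p, hp, hpd, hp2⟩ := h2
  have := Fact.mk hp
  by_contra hns
  let P : Sylow p X := Classical.arbitrary _
  obtain ⟨hP, hPn⟩ := h p hpd P
  have hP1 : (P : Subgroup X) ≠ ⊥ := P.ne_bot_of_dvd_card hpd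
  have key : ∀ M : Subgroup X, (P : Subgroup X) ≤ M → M ≠ ⊤ → HasNormalPComplement p M := by
    intro M hle hM
    rcases hP.le_iff.1 hle with e | e
    · exact absurd e hM
    · subst e
      have := P.isPGroup'.isNilpotent
      exact Lib.FPF.npc_of_isNilpotent p
  have hJ : normalizer (thompsonSubgroupOf p (P : Subgroup X) : Set X) ≠ ⊤ := fun e =>
    hns (hnorm p _ (normalizer_eq_top_iff.1 e)
      (P.isPGroup'.to_le (Lib.FPF.thompsonSubgroupOf_le _))
      (Lib.FPF.thompsonSubgroupOf_ne_bot P.isPGroup' hP1))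
  have hZle : (P : Subgroup X) ≤
      centralizer (((P : Subgroup X) ⊓ centralizer ((P : Subgroup X) : Set X) : Subgroup X) : Set X) :=
    fun x hx => mem_centralizer_iff.2 fun z hz => (mem_centralizer_iff.1 hz.2 x hx).symm
  have hZ : centralizer (((P : Subgroup X) ⊓ centralizer ((P : Subgroup X) : Set X) : Subgroup X) : Set X) ≠ ⊤ := by
    intro e
    set Z := (P : Subgroup X) ⊓ centralizer ((P : Subgroup X) : Set X) with hZ
    have hn : Z.Normal := ⟨fun z hz g => by
      have hg := mem_centralizer_iff.1 (e ▸ mem_top g) z hz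
      rwa [← hg, mul_assoc, mul_inv_cancel, mul_one]⟩
    have hne : Z ≠ ⊥ := by
      have hnt : Nontrivial (P : Subgroup X) := (nontrivial_iff_ne_bot _).2 hP1
      have := P.isPGroup'.center_nontrivial
      obtain ⟨⟨z, hz⟩, hz1⟩ := exists_ne (1 : center (P : Subgroup X))
      intro hb
      have hzZ : (z : X) ∈ Z :=
        ⟨z.2, mem_centralizer_iff.2 fun y hy => congrArg Subtype.val (mem_center_iff.1 hz ⟨y, hy⟩)⟩
      rw [hb, mem_bot] at hzZ
      exact hz1 (Subtype.ext (Subtype.ext hzZ))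
    exact hns (hnorm p Z hn (P.isPGroup'.to_le inf_le_left) hne)
  obtain ⟨P', R, hR, hRc⟩ := Lib.FPF.thompson_normal_p_complement hp2 P
    ⟨key _ (le_normalizer.trans (Lib.FPF.normalizer_le_normalizer_thompson _)) hJ, key _ hZle hZ⟩
  have hR1 : R ≠ ⊥ := fun e => by
    subst e
    exact (h p hpd P').1.1 (isComplement'_bot_left.1 hRc)
  obtain ⟨q, hq, hqR⟩ := Nat.exists_prime_and_dvd (n := Nat.card R) (by
    rwa [ne_eq, Subgroup.card_eq_one])
  have := Fact.mk hq
  let Q : Sylow q R := Classical.arbitrary _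
  have hqX : q ∣ Nat.card X := hqR.trans (Subgroup.card_subgroup_dvd_card R)
  have hqi : ¬ q ∣ R.index := by
    rw [hRc.symm.index_eq_card]
    intro hd
    obtain ⟨k, hk⟩ := IsPGroup.iff_card.1 P'.isPGroup'
    rw [hk] at hd
    have hqp : q = p := (Nat.prime_dvd_prime_iff_eq hq hp).1 (hq.dvd_of_dvd_pow hd)
    subst hqp
    exact P'.not_dvd_index (by rwa [hRc.index_eq_card])
  set Q' := (Q : Subgroup R).map R.subtype with hQ'
  have hQ'i : ¬ q ∣ Q'.index := by
    rw [hQ', index_map_subtype, Nat.Prime.dvd_mul hq, not_or]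
    exact ⟨Q.not_dvd_index, hqi⟩
  let QX : Sylow q X := (Q.isPGroup'.map R.subtype).toSylow hQ'i
  obtain ⟨hQmax, hQn⟩ := h q hqX QX
  have hF := Sylow.normalizer_sup_eq_top Q
  rcases hQmax.le_iff.1 (le_normalizer (H := (QX : Subgroup X))) with e | e
  · exact hQn (normalizer_eq_top_iff.1 e)
  · have e' : normalizer (((Q : Subgroup R).map R.subtype : Subgroup X) : Set X) = Q' := e
    rw [e', sup_eq_right.2 (map_subtype_le _)] at hF
    subst hF
    rw [index_top] at hqi
    have h1 := hRc.symm.index_eq_card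
    rw [index_top, eq_comm, card_eq_one] at h1
    exact P'.ne_bot_of_dvd_card hpd h1

end Cfsg.Agent.Struct4
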