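import Mathlib

/-!
Split extensions `(∏ᵢ (ZMod qᵢ)^dᵢ) ⋊ (ZMod a × ZMod b × ZMod c)` with fixed point free
or trivial actions, and the number of solutions of `gⁿ = 1` in them.
-/

set_option autoImplicit false

open Matrix

namespace Cfsg.Agent.OrderType

/-- A fixed point free matrix of order dividing `o`. -/
structure Kind where
  q : ℕ
  d : ℕ
  o : ℕ
  [nq : NeZero q]
  [no : NeZero o]
  A : Matrix (Fin d) (Fin d) (ZMod q)
  pow_o : A ^ o = 1
  free : ∀ a : ℕ, a % o ≠ 0 → ∀ v : Fin d → ZMod q, (A ^ a) *ᵥ v = v → v = 0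

attribute [instance] Kind.nq Kind.no

theorem free_of {q d o : ℕ} [NeZero o] (A : Matrix (Fin d) (Fin d) (ZMod q)) (hA : A ^ o = 1)
    (h : ∀ g ∈ Finset.range o, g ∣ o → ∀ v : Fin d → ZMod q, (A ^ g) *ᵥ v = v → v = 0)
    (a : ℕ) (ha : a % o ≠ 0) (v : Fin d → ZMod q) (hv : (A ^ a) *ᵥ v = v) : v = 0 := by
  have ho : 0 < o := Nat.pos_of_ne_zero (NeZero.ne o)
  have hlt : Nat.gcd a o < o := by
    refine lt_of_le_of_ne (Nat.le_of_dvd ho (Nat.gcd_dvd_right a o)) fun e => ha ?_
    exact Nat.mod_eq_zero_of_dvd (e ▸ Nat.gcd_dvd_left a o)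
  obtain ⟨m, -, hm⟩ := Nat.exists_mul_mod_eq_gcd hlt
  refine h _ (Finset.mem_range.2 hlt) (Nat.gcd_dvd_right a o) v ?_
  have hk : ∀ k : ℕ, ((A ^ a) ^ k) *ᵥ v = v := by
    intro k
    induction k with
    | zero => simp
    | succ k ih => rw [pow_succ, ← mulVec_mulVec, hv, ih]
  rw [← hm, ← pow_eq_pow_mod _ hA, pow_mul]
  exact hk m

/-- A component: a kind together with a character of the acting group. -/
structure Comp (H : Type) [AddCommGroup H] where
  K : Kind
  χ : H → ZMod K.o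
  χ_add : ∀ x y, χ (x + y) = χ x + χ y

theorem Comp.χ_zero {H : Type} [AddCommGroup H] (C : Comp H) : C.χ 0 = 0 := by
  have := C.χ_add 0 0
  rwa [add_zero, left_eq_add] at this

/-- The data of one factor. -/
structure Spec where
  a : ℕ
  b : ℕ
  c : ℕ
  [na : NeZero a]
  [nb : NeZero b]
  [nc : NeZero c]
  k : ℕ
  C : Fin k → Comp (ZMod a × ZMod b × ZMod c)

attribute [instance] Spec.na Spec.nb Spec.nc

variable (S : Spec)

/-- The acting group. -/
abbrev Spec.H : Type := ZMod S.a × ZMod S.b × ZMod S.c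

/-- The module acted upon. -/
abbrev Spec.V : Type := ∀ i : Fin S.k, Fin (S.C i).K.d → ZMod (S.C i).K.q

/-- The matrix by which `h` acts on the `i`-th component. -/
def Spec.mat (i : Fin S.k) (h : S.H) :
    Matrix (Fin (S.C i).K.d) (Fin (S.C i).K.d) (ZMod (S.C i).K.q) :=
  (S.C i).K.A ^ ((S.C i).χ h).val

theorem Spec.mat_zero (i : Fin S.k) : S.mat i 0 = 1 := by
  simp [Spec.mat, (S.C i).χ_zero]

theorem Spec.mat_add (i : Fin S.k) (h l : S.H) : S.mat i (h + l) = S.mat i h * S.mat i l := by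
  simp only [Spec.mat, (S.C i).χ_add, ZMod.val_add]
  rw [← pow_eq_pow_mod _ (S.C i).K.pow_o, pow_add]

theorem Spec.mat_nsmul (i : Fin S.k) (h : S.H) (n : ℕ) : S.mat i (n • h) = S.mat i h ^ n := by
  induction n with
  | zero => rw [zero_smul, pow_zero, S.mat_zero]
  | succ n ih => rw [succ_nsmul, S.mat_add, ih, pow_succ]

/-- The action on the module. -/
def Spec.act (h : S.H) (v : S.V) : S.V := fun i => S.mat i h *ᵥ v i

/-- The split extension. -/
@[ext] structure El (S : Spec) where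
  v : S.V
  h : S.H

instance : Mul (El S) := ⟨fun x y => ⟨x.v + S.act x.h y.v, x.h + y.h⟩⟩
instance : One (El S) := ⟨⟨0, 0⟩⟩
instance : Inv (El S) := ⟨fun x => ⟨S.act (-x.h) (-x.v), -x.h⟩⟩

theorem mul_v (x y : El S) : (x * y).v = x.v + S.act x.h y.v := rfl
theorem mul_h (x y : El S) : (x * y).h = x.h + y.h := rfl
theorem one_v : (1 : El S).v = 0 := rfl
theorem one_h : (1 : El S).h = 0 := rfl

instance : Group (El S) := Group.ofLeftAxioms
  (fun x y z => by
    ext1
    · funext i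
      simp only [mul_v, mul_h, Spec.act, Pi.add_apply, S.mat_add, mulVec_add, mulVec_mulVec, add_assoc]
    · simp only [mul_h, add_assoc])
  (fun x => by
    ext1
    · funext i
      simp only [mul_v, one_v, one_h, Spec.act, Pi.add_apply, Pi.zero_apply, zero_add, S.mat_zero,
        one_mulVec]
    · simp only [mul_h, one_h, zero_add])
  (fun x => by
    ext1
    · funext i
      show (S.act (-x.h) (-x.v) + S.act (-x.h) x.v) i = (1 : El S).v i
      simp only [one_v, Spec.act, Pi.add_apply, ← mulVec_add, Pi.neg_apply, neg_add_cancel,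
        mulVec_zero, Pi.zero_apply]
    · show -x.h + x.h = 0
      exact neg_add_cancel _)

/-- The underlying equivalence. -/
def elEquiv : El S ≃ S.V × S.H where
  toFun x := (x.v, x.h)
  invFun p := ⟨p.1, p.2⟩
  left_inv _ := rfl
  right_inv _ := rfl

instance : Finite (El S) := Finite.of_equiv _ (elEquiv S).symm

theorem pow_h (x : El S) (n : ℕ) : (x ^ n).h = n • x.h := by
  induction n with
  | zero => rw [pow_zero, zero_smul, one_h]
  | succ n ih => rw [pow_succ, mul_h, ih, succ_nsmul]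

theorem pow_v (x : El S) (n : ℕ) (i : Fin S.k) :
    (x ^ n).v i = ∑ j ∈ Finset.range n, (S.mat i x.h ^ j) *ᵥ x.v i := by
  induction n with
  | zero => simp [one_v]
  | succ n ih =>
    rw [pow_succ, mul_v, pow_h, Finset.sum_range_succ, Pi.add_apply, ih]
    simp only [Spec.act, S.mat_nsmul]

theorem pow_v_eq_zero (x : El S) (n : ℕ) (i : Fin S.k) (hn : n • x.h = 0) :
    (x ^ n).v i = 0 ↔ ((S.C i).χ x.h = 0 → n • x.v i = 0) := by
  rw [pow_v]
  by_cases h0 : (S.C i).χ x.h = 0
  · simp [Spec.mat, h0]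
  · refine iff_of_true ?_ (fun h => absurd h h0)
    set B := S.mat i x.h with hB
    set T := ∑ j ∈ Finset.range n, (B ^ j) *ᵥ x.v i with hT
    have hBn : B ^ n = 1 := by rw [← S.mat_nsmul, hn, S.mat_zero]
    have e1 : B *ᵥ T + x.v i = T + x.v i := by
      calc B *ᵥ T + x.v i = ∑ j ∈ Finset.range (n + 1), (B ^ j) *ᵥ x.v i := by
            rw [Finset.sum_range_succ' _ n, hT, mulVec_sum]
            simp [mulVec_mulVec, pow_succ']
        _ = T + x.v i := by rw [Finset.sum_range_succ, hBn, one_mulVec]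
    have hfix : B *ᵥ T = T := add_right_cancel e1
    refine (S.C i).K.free _ ?_ T hfix
    rw [Nat.mod_eq_of_lt (ZMod.val_lt _)]
    simpa [ZMod.val_eq_zero] using h0

theorem card_nsmul_ker (q d n : ℕ) [NeZero q] :
    Nat.card {v : Fin d → ZMod q // n • v = 0} = n.gcd q ^ d := by
  have hk : Nat.card {x : ZMod q // n • x = 0} = n.gcd q := by
    have := IsAddCyclic.card_nsmulAddMonoidHom_ker (G := ZMod q) n
    rw [Nat.card_zmod, Nat.gcd_comm] at this
    exact this
  have e : {v : Fin d → ZMod q // n • v = 0} ≃ (Fin d → {x : ZMod q // n • x = 0}) :=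
    (Equiv.subtypeEquivRight fun v => by simp [funext_iff]).trans
      (Equiv.subtypePiEquivPi (p := fun _ x => n • x = 0))
  rw [Nat.card_congr e, Nat.card_fun, hk, Nat.card_fin]

/-- The number of solutions of `gⁿ = 1`. -/
def Spec.f (n : ℕ) : ℕ :=
  ∑ h : S.H, if (n : ZMod S.a) * h.1 = 0 ∧ (n : ZMod S.b) * h.2.1 = 0 ∧ (n : ZMod S.c) * h.2.2 = 0
    then ∏ i : Fin S.k,
      (if (S.C i).χ h = 0 then n.gcd (S.C i).K.q ^ (S.C i).K.d else (S.C i).K.q ^ (S.C i).K.d)
    else 0

theorem killed_iff (n : ℕ) (h : S.H) :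
    ((n : ZMod S.a) * h.1 = 0 ∧ (n : ZMod S.b) * h.2.1 = 0 ∧ (n : ZMod S.c) * h.2.2 = 0) ↔ n • h = 0 := by
  simp [Prod.ext_iff, nsmul_eq_mul]

theorem card_pow_eq_one (n : ℕ) : Nat.card {x : El S // x ^ n = 1} = S.f n := by
  classical
  have e1 : {x : El S // x ^ n = 1} ≃
      {p : S.H × S.V // n • p.1 = 0 ∧ ∀ i, ((S.C i).χ p.1 = 0 → n • p.2 i = 0)} := by
    refine ((elEquiv S).trans (Equiv.prodComm _ _)).subtypeEquiv fun x => ?_
    simp only [Equiv.trans_apply, elEquiv, Equiv.coe_fn_mk, Equiv.prodComm_apply, Prod.swap_prod_mk]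
    constructor
    · intro hx
      have hh : n • x.h = 0 := by rw [← pow_h, hx, one_h]
      exact ⟨hh, fun i => (pow_v_eq_zero S x n i hh).1 (by rw [hx]; rfl)⟩
    · rintro ⟨hh, hv⟩
      apply El.ext
      · funext i
        exact (pow_v_eq_zero S x n i hh).2 (hv i)
      · rw [pow_h, hh, one_h]
  rw [Nat.card_congr (e1.trans (Equiv.subtypeProdEquivSigmaSubtype (fun (h : S.H) (v : S.V) =>
    n • h = 0 ∧ ∀ i, ((S.C i).χ h = 0 → n • v i = 0)))), Nat.card_sigma]
  refine Finset.sum_congr rfl fun h _ => ?_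
  by_cases hh : n • h = 0
  · rw [if_pos ((killed_iff S n h).2 hh)]
    simp only [hh, true_and]
    rw [Nat.card_congr (Equiv.subtypePiEquivPi (p := fun i (x : Fin (S.C i).K.d → ZMod (S.C i).K.q) =>
      (S.C i).χ h = 0 → n • x = 0)), Nat.card_pi]
    refine Finset.prod_congr rfl fun i _ => ?_
    by_cases h0 : (S.C i).χ h = 0
    · rw [if_pos h0]
      simp only [h0, true_implies]
      exact card_nsmul_ker _ _ _
    · rw [if_neg h0]
      simp [h0]
  · rw [if_neg fun c => hh ((killed_iff S n h).1 c)]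
    have : IsEmpty {v : S.V // n • h = 0 ∧ ∀ i, (S.C i).χ h = 0 → n • v i = 0} :=
      ⟨fun v => hh v.2.1⟩
    exact Nat.card_of_isEmpty

/-- All orders divide `84`. -/
def Spec.Ok : Prop :=
  S.a ∣ 84 ∧ S.b ∣ 84 ∧ S.c ∣ 84 ∧ ∀ i, (S.C i).K.q ∣ 84

theorem pow_84 (hS : S.Ok) (x : El S) : x ^ 84 = 1 := by
  obtain ⟨ha, hb, hc, hq⟩ := hS
  have z : ∀ (m : ℕ) (y : ZMod m), m ∣ 84 → (84 : ℕ) • y = 0 := fun m y hm => by
    rw [nsmul_eq_mul, show ((84 : ℕ) : ZMod m) = 0 from (ZMod.natCast_eq_zero_iff _ _).2 hm, zero_mul]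
  have hh : (84 : ℕ) • x.h = 0 := Prod.ext (z _ _ ha) (Prod.ext (z _ _ hb) (z _ _ hc))
  apply El.ext
  · funext i
    exact (pow_v_eq_zero S x 84 i hh).2 fun _ => funext fun j => z _ _ (hq i)
  · rw [pow_h, hh, one_h]

/-- The quotient map to the acting group. -/
def toH : El S →* Multiplicative S.H where
  toFun x := Multiplicative.ofAdd x.h
  map_one' := rfl
  map_mul' _ _ := rfl

theorem ker_comm (x y : El S) (hx : x.h = 0) (hy : y.h = 0) : x * y = y * x := by
  apply El.ext
  · funext i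
    simp [mul_v, Spec.act, hx, hy, S.mat_zero, add_comm]
  · simp [mul_h, hx, hy]

variable {ι : Type} [Fintype ι] (T : ι → Spec)

theorem card_pi_pow (n : ℕ) :
    Nat.card {g : ∀ i, El (T i) // g ^ n = 1} = ∏ i, (T i).f n := by
  have e : {g : ∀ i, El (T i) // g ^ n = 1} ≃ ∀ i, {x : El (T i) // x ^ n = 1} :=
    (Equiv.subtypeEquivRight fun g => by simp [funext_iff]).trans
      (Equiv.subtypePiEquivPi (p := fun i (x : El (T i)) => x ^ n = 1))
  rw [Nat.card_congr e, Nat.card_pi]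
  simp only [card_pow_eq_one]

omit [Fintype ι] in
theorem isSolvable_pi : Group.IsSolvable (∀ i, El (T i)) := by
  let φ : (∀ i, El (T i)) →* ∀ i, Multiplicative (T i).H :=
    MonoidHom.pi fun i => (toH (T i)).comp (Pi.evalMonoidHom (fun i => El (T i)) i)
  have hk : Group.IsSolvable φ.ker := Group.isSolvable_of_comm fun x y => Subtype.ext <| funext fun i => by
    refine ker_comm (T i) _ _ ?_ ?_
    · exact congrArg Multiplicative.toAdd (congrFun x.2 i)
    · exact congrArg Multiplicative.toAdd (congrFun y.2 i)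
  have : Group.IsSolvable (∀ i, Multiplicative (T i).H) := Group.isSolvable_of_comm fun x y => mul_comm x y
  exact Group.isSolvable_of_ker_le_range φ.ker.subtype φ (by rw [Subgroup.range_subtype])

end Cfsg.Agent.OrderType
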