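import Mathlib
import Cfsg.Agent.Lib.Struct4.Basic
import Cfsg.Agent.Lib.Coprime.Action

/-! Elements of prime order at least five in a group acting on twenty-two Sylow `3`-subgroups. -/

set_option autoImplicit false

namespace Cfsg.Agent.Struct4.TwentyTwo

open Cfsg.Agent.Lib.Struct4

variable {G : Type*} [Group G] [Finite G] [Fact (Nat.Prime 3)]

theorem dvd_card_of_no_fixed {X : Type*} [MulAction G X] [Finite X] {p : ℕ} [Fact p.Prime]
    (A : Subgroup G) (hA : IsPGroup p A) (S : X → Prop) (hS : ∀ a ∈ A, ∀ x, S x → S (a • x))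
    (hno : ∀ x, S x → ∃ a ∈ A, a • x ≠ x) : p ∣ Nat.card {x // S x} := by
  let _ : MulAction A {x // S x} :=
    { smul := fun a x => ⟨(a : G) • x.1, hS _ a.2 _ x.2⟩
      one_smul := fun x => Subtype.ext (one_smul G x.1)
      mul_smul := fun a b x => Subtype.ext (mul_smul (a : G) (b : G) x.1) }
  have hmod := hA.card_modEq_card_fixedPoints {x // S x}
  have : IsEmpty (MulAction.fixedPoints A {x // S x}) := by
    refine ⟨fun ⟨x, hx⟩ => ?_⟩
    obtain ⟨a, ha, hne⟩ := hno x.1 x.2
    exact hne (congrArg Subtype.val (hx ⟨a, ha⟩))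
  rw [Nat.card_of_isEmpty (α := MulAction.fixedPoints A {x // S x})] at hmod
  exact Nat.modEq_zero_iff_dvd.1 hmod

theorem eq_of_fixed_sylow (P Q : Sylow 3 G) (h : ∀ y ∈ (P : Subgroup G), y • Q = Q) : Q = P := by
  refine Sylow.ext (P.is_maximal' Q.isPGroup' fun y hy => ?_)
  obtain ⟨k, hk⟩ := IsPGroup.iff_orderOf.1 P.isPGroup' ⟨y, hy⟩
  exact mem_sylow_of_normalizer Q (Sylow.smul_eq_iff_mem_normalizer.1 (h y hy))
    ⟨k, by rwa [Subgroup.orderOf_mk] at hk⟩

theorem zpowers_isPGroup {x : G} {q : ℕ} (hx : orderOf x = q) : IsPGroup q (Subgroup.zpowers x) :=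
  IsPGroup.of_card (n := 1) (by rw [Nat.card_zpowers, hx, pow_one])

theorem zpow_smul_fixed {X : Type*} [MulAction G X] {x : G} {R : X} (h : x • R = R) :
    ∀ a ∈ Subgroup.zpowers x, a • R = R := fun a ha =>
  (Subgroup.zpowers_le.2 (MulAction.mem_stabilizer_iff.2 h) :
    Subgroup.zpowers x ≤ MulAction.stabilizer G R) ha

variable (hn : Nat.card (Sylow 3 G) = 22)
include hn

/-- A fixed point in an orbit of `P` makes the orbit fixed. -/
theorem fixed_orbit {P Q : Sylow 3 G} {x : G} {q : ℕ} [Fact q.Prime] (hq : 5 ≤ q)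
    (hx : orderOf x = q) (hxP : x • P = P) (hxQ : x • Q = Q) (y : G) (hy : y ∈ (P : Subgroup G)) :
    x • y • Q = y • Q := by
  classical
  have hq3 : q ≠ 3 := by omega
  set A := Subgroup.zpowers x with hA
  have hxN : x ∈ Subgroup.normalizer ((P : Subgroup G) : Set G) := Sylow.smul_eq_iff_mem_normalizer.1 hxP
  obtain ⟨n, hnP⟩ := IsPGroup.iff_card.1 P.isPGroup'
  rcases eq_or_ne Q P with rfl | hQP
  · rw [show y • Q = Q from Sylow.smul_eq_iff_mem_normalizer.2 (Subgroup.le_normalizer hy)]
    exact hxQ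
  set O := MulAction.orbit (P : Subgroup G) Q with hO
  have hOmem : ∀ R, R ∈ O ↔ ∃ z ∈ (P : Subgroup G), z • Q = R := fun R =>
    ⟨fun ⟨z, hz⟩ => ⟨z, z.2, hz⟩, fun ⟨z, hz, hR⟩ => ⟨⟨z, hz⟩, hR⟩⟩
  obtain ⟨k, hk⟩ := P.isPGroup'.card_orbit Q
  change Nat.card O = 3 ^ k at hk
  have hPO : P ∉ O := fun h => by
    obtain ⟨z, hz, hzP⟩ := (hOmem P).1 h
    have h1 : z⁻¹ • P = Q := by rw [← hzP, inv_smul_smul]
    exact hQP (h1.symm.trans (Sylow.smul_eq_iff_mem_normalizer.2
      (Subgroup.le_normalizer ((P : Subgroup G).inv_mem hz))))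
  have hle : Nat.card O ≤ 21 := by
    have h1 : Nat.card O < Nat.card (Sylow 3 G) := by
      cases nonempty_fintype (Sylow 3 G)
      rw [Nat.card_eq_fintype_card, Nat.card_eq_fintype_card]
      exact Fintype.card_subtype_lt (x := P) hPO
    omega
  have hOinv : ∀ a ∈ A, ∀ R, R ∈ O → a • R ∈ O := by
    intro a ha R hR
    obtain ⟨z, hz, rfl⟩ := (hOmem R).1 hR
    have haN : a ∈ Subgroup.normalizer ((P : Subgroup G) : Set G) := (Subgroup.zpowers_le.2 hxN) ha
    refine (hOmem _).2 ⟨a * z * a⁻¹, (Subgroup.mem_normalizer_iff.1 haN z).1 hz, ?_⟩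
    rw [mul_smul, mul_smul, zpow_smul_fixed hxQ a⁻¹ (A.inv_mem ha)]
  let _ : MulAction A O :=
    { smul := fun a R => ⟨(a : G) • R.1, hOinv a a.2 R.1 R.2⟩
      one_smul := fun R => Subtype.ext (one_smul G R.1)
      mul_smul := fun a b R => Subtype.ext (mul_smul (a : G) (b : G) R.1) }
  have hmod := (zpowers_isPGroup hx).card_modEq_card_fixedPoints O
  set C := (P : Subgroup G) ⊓ Subgroup.centralizer (A : Set G) with hC
  have hfix : ∀ R : O, R ∈ MulAction.fixedPoints A O ↔ R.1 ∈ MulAction.orbit C Q := by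
    intro R
    constructor
    · intro hR
      obtain ⟨z, hz, hzR⟩ := (hOmem _).1 R.2
      obtain ⟨c, hc, hzc⟩ := Lib.Coprime.exists_centralizer_mem_coset (A := A)
        (N := (P : Subgroup G) ⊓ MulAction.stabilizer G Q) (k := z)
        (fun a ha => by
          have hset : ∀ b ∈ A, ∀ u ∈ (P : Subgroup G) ⊓ MulAction.stabilizer G Q,
              b * u * b⁻¹ ∈ (P : Subgroup G) ⊓ MulAction.stabilizer G Q := fun b hb u hu => by
            refine ⟨(Subgroup.mem_normalizer_iff.1 ((Subgroup.zpowers_le.2 hxN) hb) u).1 hu.1, ?_⟩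
            show (b * u * b⁻¹) • Q = Q
            rw [mul_smul, mul_smul,
              zpow_smul_fixed hxQ b⁻¹ (A.inv_mem hb), MulAction.mem_stabilizer_iff.1 hu.2,
              zpow_smul_fixed hxQ b hb]
          refine Subgroup.mem_normalizer_iff.2 fun u => ⟨hset a ha u, fun hu => ?_⟩
          have := hset a⁻¹ (A.inv_mem ha) _ hu
          simpa [mul_assoc] using this)
        (by
          obtain ⟨m, hm⟩ := IsPGroup.iff_card.1 (P.isPGroup'.to_le
            (inf_le_left : (P : Subgroup G) ⊓ MulAction.stabilizer G Q ≤ P))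
          rw [hm, Nat.card_zpowers, hx]
          exact ((Nat.coprime_primes Fact.out Fact.out).2 hq3).pow_right m)
        (Or.inl (Group.isSolvable_of_comm fun a b => mul_comm' a b))
        (fun a ha => by
          have haN : a ∈ Subgroup.normalizer ((P : Subgroup G) : Set G) := (Subgroup.zpowers_le.2 hxN) ha
          refine ⟨(P : Subgroup G).mul_mem ((P : Subgroup G).inv_mem hz)
            ((Subgroup.mem_normalizer_iff.1 haN z).1 hz), ?_⟩
          show (z⁻¹ * (a * z * a⁻¹)) • Q = Q
          rw [mul_smul, inv_smul_eq_iff, mul_smul,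
            mul_smul, zpow_smul_fixed hxQ a⁻¹ (A.inv_mem ha), hzR]
          exact congrArg Subtype.val (hR ⟨a, ha⟩))
      have hcP : c ∈ (P : Subgroup G) := by
        simpa using (P : Subgroup G).mul_mem hz hzc.1
      refine ⟨⟨c, hcP, hc⟩, ?_⟩
      show c • Q = R.1
      rw [← hzR, ← inv_smul_eq_iff.mp (MulAction.mem_stabilizer_iff.1 hzc.2 |> fun h => (mul_smul z⁻¹ c Q).symm.trans h)]
    · rintro ⟨⟨c, hc⟩, hcR⟩ ⟨a, ha⟩
      apply Subtype.ext
      show a • R.1 = R.1
      rw [← hcR]
      show a • c • Q = c • Q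
      rw [← mul_smul, Subgroup.mem_centralizer_iff.1 hc.2 a ha, mul_smul, zpow_smul_fixed hxQ a ha]
  have hF : Nat.card (MulAction.fixedPoints A O) = Nat.card (MulAction.orbit C Q) :=
    Nat.card_congr
      { toFun := fun R => ⟨R.1.1, (hfix R.1).1 R.2⟩
        invFun := fun R => ⟨⟨R.1, by
          obtain ⟨c, hc⟩ := R.2
          exact (hOmem _).2 ⟨c, c.2.1, hc⟩⟩, (hfix _).2 R.2⟩
        left_inv := fun R => rfl
        right_inv := fun R => rfl }
  obtain ⟨j, hj⟩ := (P.isPGroup'.to_le (inf_le_left : C ≤ P)).card_orbit Q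
  rw [hF, hj, hk] at hmod
  have hjk : j ≤ k := by
    by_contra h
    have h1 : Nat.card (MulAction.fixedPoints A O) ≤ Nat.card O := Nat.card_le_card_of_injective _ Subtype.val_injective
    rw [hF, hj, hk] at h1
    exact absurd h1 (not_le.2 (Nat.pow_lt_pow_right (by norm_num) (not_le.1 h)))
  have hjk' : j = k := by
    have hk2 : k ≤ 2 := by
      by_contra h
      have := Nat.pow_le_pow_right (show 1 ≤ 3 by norm_num) (not_le.1 h)
      rw [← hk] at this
      omega
    interval_cases k <;> interval_cases j <;> first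
      | rfl
      | (exfalso
         have h2 := (Nat.modEq_iff_dvd' (by norm_num)).1 hmod.symm
         norm_num at h2
         first
           | (have := Nat.le_of_dvd (by norm_num) h2; omega)
           | (have h2' : q ∣ 2 ^ 3 := h2
              have := Nat.le_of_dvd (by norm_num) ((Fact.out : q.Prime).dvd_of_dvd_pow h2'); omega)
           | (rcases (Nat.Prime.dvd_mul Fact.out).1 (show q ∣ 2 * 3 from h2) with h3 | h3 <;>
               have := Nat.le_of_dvd (by norm_num) h3 <;> omega))
  have hall : ∀ R : O, R ∈ MulAction.fixedPoints A O := by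
    have h1 : MulAction.fixedPoints A O = Set.univ := by
      apply Set.eq_of_subset_of_ncard_le (Set.subset_univ _)
      rw [Set.ncard_univ, ← Nat.card_coe_set_eq, hF, hj, hjk', hk]
    intro R
    rw [h1]
    trivial
  exact congrArg Subtype.val (hall ⟨y • Q, (hOmem _).2 ⟨y, hy, rfl⟩⟩ ⟨x, Subgroup.mem_zpowers x⟩)

/-- The points moved by an element of prime order at least five with a fixed point. -/
theorem card_moved (hinj : ∀ g : G, (∀ R : Sylow 3 G, g • R = R) → g = 1) {P : Sylow 3 G} {x : G}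
    {q : ℕ} [Fact q.Prime] (hq : 5 ≤ q) (hx : orderOf x = q) (hxP : x • P = P) :
    3 * q ∣ Nat.card {R : Sylow 3 G // x • R ≠ R} ∧ 0 < Nat.card {R : Sylow 3 G // x • R ≠ R} ∧
      Nat.card {R : Sylow 3 G // x • R ≠ R} ≤ 21 := by
  classical
  have hq' : q.Prime := Fact.out
  have hx1 : x ≠ 1 := fun h => by rw [h, orderOf_one] at hx; omega
  refine ⟨?_, ?_, ?_⟩
  · refine ((Nat.coprime_primes (Fact.out : (3 : ℕ).Prime) hq').2 (by omega)).mul_dvd_of_dvd_of_dvd ?_ ?_
    · refine dvd_card_of_no_fixed (P : Subgroup G) P.isPGroup' _ (fun a ha R hR h => hR ?_) fun R hR => ?_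
      · have h1 := fixed_orbit hn hq hx hxP h a⁻¹ ((P : Subgroup G).inv_mem ha)
        rwa [inv_smul_smul] at h1
      · by_contra h
        push Not at h
        exact hR (eq_of_fixed_sylow P R h ▸ hxP)
    · refine dvd_card_of_no_fixed (Subgroup.zpowers x) (zpowers_isPGroup hx) _ ?_
        fun R hR => ⟨x, Subgroup.mem_zpowers x, hR⟩
      intro a ha R hR h
      refine hR ?_
      obtain ⟨m, rfl⟩ := Subgroup.mem_zpowers_iff.1 ha
      apply MulAction.injective (x ^ m)
      show x ^ m • x • R = x ^ m • R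
      rw [← mul_smul, ← (Commute.self_zpow x m).eq, mul_smul, h]
  · by_contra h
    have h0 : IsEmpty {R : Sylow 3 G // x • R ≠ R} :=
      (Nat.card_eq_zero.1 (Nat.eq_zero_of_not_pos h)).resolve_right (fun hi => hi.not_finite inferInstance)
    exact hx1 (hinj x fun R => by_contra fun hR => h0.false ⟨R, hR⟩)
  · have h1 : Nat.card {R : Sylow 3 G // x • R ≠ R} < Nat.card (Sylow 3 G) := by
      cases nonempty_fintype (Sylow 3 G)
      rw [Nat.card_eq_fintype_card, Nat.card_eq_fintype_card]
      exact Fintype.card_subtype_lt (x := P) (fun h => h hxP)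
    omega

theorem card_fixed_add (x : G) :
    Nat.card {R : Sylow 3 G // x • R = R} + Nat.card {R : Sylow 3 G // x • R ≠ R} = 22 := by
  classical
  rw [← Nat.card_sum, Nat.card_congr (Equiv.sumCompl (fun R : Sylow 3 G => x • R = R)), hn]

theorem exists_fixed {x : G} {q : ℕ} [Fact q.Prime] (hx : orderOf x = q) (hq : ¬ q ∣ 22) :
    ∃ P : Sylow 3 G, x • P = P := by
  by_contra h
  push Not at h
  refine hq ?_
  have h1 := dvd_card_of_no_fixed (Subgroup.zpowers x) (zpowers_isPGroup hx) (fun _ : Sylow 3 G => True)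
    (fun _ _ _ _ => trivial) fun R _ => ⟨x, Subgroup.mem_zpowers x, h R⟩
  rwa [Nat.card_congr (Equiv.subtypeUnivEquiv fun _ => trivial), hn] at h1

variable (hinj : ∀ g : G, (∀ R : Sylow 3 G, g • R = R) → g = 1)
include hinj

theorem prime_cases {q : ℕ} (hq : q.Prime) (hd : q ∣ Nat.card G) :
    q = 2 ∨ q = 3 ∨ q = 5 ∨ q = 7 ∨ q = 11 := by
  by_contra h
  have := Fact.mk hq
  obtain ⟨x, hx⟩ := exists_prime_orderOf_dvd_card' q hd
  have hq11 : 12 ≤ q := by
    by_contra h'
    interval_cases q <;> first | omega | exact absurd hq (by norm_num)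
  obtain ⟨P, hP⟩ := exists_fixed hn hx fun h22 => by
    rcases (Nat.Prime.dvd_mul hq).1 (show q ∣ 2 * 11 from h22) with h3 | h3 <;>
      have := Nat.le_of_dvd (by norm_num) h3 <;> omega
  obtain ⟨h1, h2, h3⟩ := card_moved hn hinj (by omega) hx hP
  have := Nat.le_of_dvd h2 h1
  omega

theorem five_moves {x : G} (hx : orderOf x = 5) :
    Nat.card {R : Sylow 3 G // x • R = R} = 7 := by
  have := Fact.mk (show Nat.Prime 5 by norm_num)
  obtain ⟨P, hP⟩ := exists_fixed hn hx (by norm_num)
  obtain ⟨h1, h2, h3⟩ := card_moved hn hinj le_rfl hx hP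
  have := card_fixed_add hn x
  omega

theorem not_five_dvd : ¬ 5 ∣ Nat.card G := by
  classical
  intro hd
  have := Fact.mk (show Nat.Prime 5 by norm_num)
  obtain ⟨C₀⟩ : Nonempty (Sylow 5 G) := inferInstance
  have hC : Nat.card (C₀ : Subgroup G) = 5 := by
    obtain ⟨k, hk⟩ := IsPGroup.iff_card.1 C₀.isPGroup'
    have h5 := C₀.dvd_card_of_dvd_card hd
    rcases k with _ | _ | k
    · rw [hk] at h5; norm_num at h5
    · rw [hk, pow_one]
    exfalso
    obtain ⟨D, hD⟩ := Sylow.exists_subgroup_card_pow_prime 5 (n := 2) (G := (C₀ : Subgroup G))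
      (hk ▸ pow_dvd_pow 5 (by omega))
    set D' := D.map (C₀ : Subgroup G).subtype
    have hD' : Nat.card D' = 25 := by
      rw [Subgroup.card_map_of_injective (C₀ : Subgroup G).subtype_injective, hD]; norm_num
    cases nonempty_fintype D'
    cases nonempty_fintype (Sylow 3 G)
    have hD'p : IsPGroup 5 D' := IsPGroup.of_card (n := 2) (by rw [hD']; norm_num)
    have hexp : ∀ d : D', d ^ 5 = 1 := by
      intro d
      refine Subtype.ext (hinj _ fun R => ?_)
      obtain ⟨j, hj⟩ := hD'p.card_orbit R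
      have hle : Nat.card (MulAction.orbit D' R) ≤ 22 :=
        hn ▸ Nat.card_le_card_of_injective _ Subtype.val_injective
      rw [hj] at hle
      have hj1 : j ≤ 1 := by
        by_contra hh
        have := Nat.pow_le_pow_right (show 1 ≤ 5 by norm_num) (not_le.1 hh)
        omega
      have hidx : (MulAction.stabilizer D' R).index ∣ 5 := by
        rw [Subgroup.index, ← Nat.card_congr (MulAction.orbitEquivQuotientStabilizer D' R), hj]
        exact (pow_dvd_pow 5 hj1).trans (by norm_num)
      have hmem : d ^ 5 ∈ MulAction.stabilizer D' R := by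
        rcases (Nat.dvd_prime (by norm_num)).1 hidx with h | h
        · rw [Subgroup.index_eq_one.1 h]; trivial
        · have hnorm : (MulAction.stabilizer D' R).Normal := by
            have hcomm : ∀ a b : D', a * b = b * a :=
              (IsPGroup.commGroupOfCardEqPrimeSq (p := 5) (by rw [hD']; norm_num)).mul_comm
            exact ⟨fun a ha g => by rw [hcomm g a, mul_assoc, mul_inv_cancel, mul_one]; exact ha⟩
          rw [← QuotientGroup.eq_one_iff, QuotientGroup.mk_pow]
          refine orderOf_dvd_iff_pow_eq_one.1 ?_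
          exact (orderOf_dvd_natCard _).trans (by rw [← Subgroup.index, h])
      exact MulAction.mem_stabilizer_iff.1 hmem
    have hsum : ∑ d : D', Fintype.card (MulAction.fixedBy (Sylow 3 G) d) = 190 := by
      have h1 : ∀ d : D', Fintype.card (MulAction.fixedBy (Sylow 3 G) d) = if d = 1 then 22 else 7 := by
        intro d
        rw [← Nat.card_eq_fintype_card]
        split_ifs with h
        · subst h
          rw [← hn]
          exact Nat.card_congr (Equiv.subtypeUnivEquiv fun R => one_smul D' R)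
        · have ho : orderOf (d : G) = 5 := by
            rw [Subgroup.orderOf_coe]
            exact orderOf_eq_prime (hexp d) h
          exact five_moves hn hinj ho
      rw [Finset.sum_congr rfl fun d _ => h1 d, ← Finset.add_sum_erase _ _ (Finset.mem_univ (1 : D')),
        if_pos rfl, Finset.sum_congr rfl fun d hd => if_neg (Finset.ne_of_mem_erase hd), Finset.sum_const,
        Finset.card_erase_of_mem (Finset.mem_univ _), Finset.card_univ, ← Nat.card_eq_fintype_card, hD']
      norm_num
    have hb := MulAction.sum_card_fixedBy_eq_card_orbits_mul_card_group D' (Sylow 3 G)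
    rw [hsum, ← Nat.card_eq_fintype_card (α := D'), hD'] at hb
    omega
  obtain ⟨⟨x, hxC⟩, hx⟩ := exists_prime_orderOf_dvd_card' 5 (show 5 ∣ Nat.card (C₀ : Subgroup G) by rw [hC])
  rw [Subgroup.orderOf_mk] at hx
  set C := Subgroup.zpowers x with hCdef
  have hCcard : Nat.card C = 5 := by rw [Nat.card_zpowers, hx]
  obtain ⟨P, hP⟩ := exists_fixed hn hx (by norm_num)
  set N := Subgroup.normalizer (C : Set G) with hN
  -- the normaliser is transitive on the seven fixed points
  have horb : ∀ R : Sylow 3 G, x • R = R → R ∈ MulAction.orbit N P := by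
    intro R hR
    obtain ⟨g, hg⟩ := MulAction.exists_smul_eq G P R
    have hgx : (g⁻¹ * x * g) • P = P := by rw [mul_smul, mul_smul, hg, hR, ← hg, inv_smul_smul]
    set H := MulAction.stabilizer G P
    have hC5 : ∀ z : G, orderOf z = 5 → z • P = P → ∃ S : Sylow 5 H, (S : Subgroup H) = (Subgroup.zpowers z).subgroupOf H := by
      intro z hz hzP
      have hle : Subgroup.zpowers z ≤ H := Subgroup.zpowers_le.2 (MulAction.mem_stabilizer_iff.2 hzP)
      have hnd : ¬ 5 ^ 2 ∣ Nat.card H := fun h25 => by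
        obtain ⟨S⟩ : Nonempty (Sylow 5 H) := inferInstance
        have h1 := S.pow_dvd_card_of_pow_dvd_card h25
        have h2 : Nat.card (S : Subgroup H) ∣ Nat.card (C₀ : Subgroup G) := by
          have h3 : IsPGroup 5 ((S : Subgroup H).map H.subtype) := S.isPGroup'.map _
          obtain ⟨T, hT⟩ := h3.exists_le_sylow
          rw [C₀.card_eq_multiplicity, ← T.card_eq_multiplicity,
            ← Subgroup.card_map_of_injective H.subtype_injective]
          exact Subgroup.card_dvd_of_le hT
        rw [hC] at h2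
        have := Nat.le_of_dvd (by norm_num) (h1.trans h2)
        omega
      refine ⟨Sylow.ofCard ((Subgroup.zpowers z).subgroupOf H) ?_, rfl⟩
      rw [Nat.card_congr (Subgroup.subgroupOfEquivOfLe hle).toEquiv, Nat.card_zpowers, hz]
      have h1 : 5 ∣ Nat.card H := by
        have := Subgroup.card_dvd_of_le hle
        rwa [Nat.card_zpowers, hz] at this
      have h2 : (Nat.card H).factorization 5 = 1 := by
        have ha : 1 ≤ (Nat.card H).factorization 5 :=
          (Nat.Prime.pow_dvd_iff_le_factorization (by norm_num) Nat.card_pos.ne').1 (by simpa using h1)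
        have hb : ¬ 2 ≤ (Nat.card H).factorization 5 := fun hh =>
          hnd ((Nat.Prime.pow_dvd_iff_le_factorization (by norm_num) Nat.card_pos.ne').2 hh)
        omega
      rw [h2, pow_one]
    have hord : orderOf (g⁻¹ * x * g) = 5 := by
      rw [show g⁻¹ * x * g = g⁻¹ * x * (g⁻¹)⁻¹ by group]
      exact (orderOf_injective (MulAut.conj g⁻¹).toMonoidHom (MulAut.conj g⁻¹).injective x).trans hx
    obtain ⟨S, hS⟩ := hC5 x hx hP
    obtain ⟨T, hT⟩ := hC5 _ hord hgx
    obtain ⟨h, hh⟩ := MulAction.exists_smul_eq H S T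
    refine ⟨⟨g * h, ?_⟩, ?_⟩
    · have hmem : (h : G) * x * (h : G)⁻¹ ∈ Subgroup.zpowers (g⁻¹ * x * g) := by
        have hxS : (⟨x, MulAction.mem_stabilizer_iff.2 hP⟩ : H) ∈ (S : Subgroup H) := by
          rw [hS]; exact Subgroup.mem_subgroupOf.2 (Subgroup.mem_zpowers x)
        have h2 : h * ⟨x, MulAction.mem_stabilizer_iff.2 hP⟩ * h⁻¹ ∈ (T : Subgroup H) := by
          rw [← hh, mem_normal_smul_sylow]
          simpa [mul_assoc] using hxS
        rw [hT, Subgroup.mem_subgroupOf] at h2
        simpa using h2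
      rw [hN, Subgroup.mem_normalizer_iff_map_conj_eq]
      apply Subgroup.eq_of_le_of_card_ge
      · rw [hCdef, MonoidHom.map_zpowers, Subgroup.zpowers_le]
        obtain ⟨m, hm⟩ := Subgroup.mem_zpowers_iff.1 hmem
        refine Subgroup.mem_zpowers_iff.2 ⟨m, ?_⟩
        show x ^ m = g * (h : G) * x * (g * (h : G))⁻¹
        rw [show g * (h : G) * x * (g * (h : G))⁻¹ = g * ((h : G) * x * (h : G)⁻¹) * g⁻¹ by group, ← hm,
          show g⁻¹ * x * g = g⁻¹ * x * (g⁻¹)⁻¹ by group, ← conj_zpow]
        group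
      · rw [Subgroup.card_map_of_injective (MulEquiv.injective _)]
    · show (g * (h : G)) • P = R
      rw [mul_smul, MulAction.mem_stabilizer_iff.1 h.2, hg]
  have hfixorb : ∀ R ∈ MulAction.orbit N P, x • R = R := by
    rintro _ ⟨⟨z, hz⟩, rfl⟩
    show x • z • P = z • P
    have hm : z⁻¹ * x * z ∈ C := by
      have := (Subgroup.mem_normalizer_iff.1 (inv_mem hz) x).1 (Subgroup.mem_zpowers x)
      simpa using this
    have := zpow_smul_fixed hP _ hm
    rw [mul_smul, mul_smul, inv_smul_eq_iff] at this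
    exact this
  have h7 : 7 ∣ Nat.card N := by
    have h1 : Nat.card (MulAction.orbit N P) = 7 := by
      rw [← five_moves hn hinj hx]
      exact Nat.card_congr (Equiv.subtypeEquivRight fun R => ⟨hfixorb R, horb R⟩)
    rw [← h1, Nat.card_congr (MulAction.orbitEquivQuotientStabilizer N P)]
    exact Subgroup.index_dvd_card _
  have := Fact.mk (show Nat.Prime 7 by norm_num)
  obtain ⟨⟨y, hyN⟩, hy⟩ := exists_prime_orderOf_dvd_card' 7 h7
  rw [Subgroup.orderOf_mk] at hy
  have hxy : Commute y x := by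
    have h1 : C.normalizerMonoidHom ⟨y, hyN⟩ = 1 := by
      have hcyc : IsCyclic C := inferInstance
      have hd1 : orderOf (C.normalizerMonoidHom ⟨y, hyN⟩) ∣ Nat.gcd 7 4 := by
        refine Nat.dvd_gcd ((orderOf_map_dvd _ _).trans (by rw [Subgroup.orderOf_mk, hy])) ?_
        refine (orderOf_dvd_natCard _).trans ?_
        rw [hcyc.card_mulAut, hCcard, Nat.totient_prime (by norm_num)]
      rwa [show Nat.gcd 7 4 = 1 by norm_num, Nat.dvd_one, orderOf_eq_one_iff] at hd1
    have h2 := congrArg (fun e : MulAut C => ((e ⟨x, Subgroup.mem_zpowers x⟩ : C) : G)) h1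
    change y * x * y⁻¹ = x at h2
    exact mul_inv_eq_iff_eq_mul.1 h2
  obtain ⟨R, hR⟩ := exists_fixed hn hy (by norm_num)
  obtain ⟨m1, m2, m3⟩ := card_moved hn hinj (by norm_num) hy hR
  have hfy : Nat.card {S : Sylow 3 G // y • S = S} = 1 := by
    have := card_fixed_add hn y
    omega
  have hsub := (Nat.card_eq_one_iff_unique.1 hfy).1
  have hxR : x • R = R := by
    have h3 : y • x • R = x • R := by rw [← mul_smul, hxy.eq, mul_smul, hR]
    exact congrArg Subtype.val (hsub.elim ⟨x • R, h3⟩ ⟨R, hR⟩)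
  -- the seven fixed points of `x`, one of them fixed by `y`, are all fixed by `y`
  have hF : 7 ∣ Nat.card {S : Sylow 3 G // x • S = S ∧ y • S ≠ S} := by
    refine dvd_card_of_no_fixed (Subgroup.zpowers y) (zpowers_isPGroup hy) _ ?_
      fun S hS => ⟨y, Subgroup.mem_zpowers y, hS.2⟩
    intro a ha S ⟨hS1, hS2⟩
    obtain ⟨k, rfl⟩ := Subgroup.mem_zpowers_iff.1 ha
    refine ⟨?_, fun h => hS2 ?_⟩
    · rw [← mul_smul, ← (hxy.zpow_left k).eq, mul_smul, hS1]
    · apply MulAction.injective (y ^ k)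
      show y ^ k • y • S = y ^ k • S
      rw [← mul_smul, ← (Commute.self_zpow y k).eq, mul_smul, h]
  have hlt : Nat.card {S : Sylow 3 G // x • S = S ∧ y • S ≠ S} < 7 := by
    rw [← five_moves hn hinj hx]
    let f : {S : Sylow 3 G // x • S = S ∧ y • S ≠ S} → {S : Sylow 3 G // x • S = S} := fun S => ⟨S.1, S.2.1⟩
    cases nonempty_fintype (Sylow 3 G)
    rw [Nat.card_eq_fintype_card, Nat.card_eq_fintype_card]
    refine Fintype.card_lt_of_injective_of_notMem f (b := ⟨R, hxR⟩)
      (fun a b h => Subtype.ext (congrArg (fun z : {S : Sylow 3 G // x • S = S} => z.1) h)) ?_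
    rintro ⟨S, hS⟩
    exact S.2.2 (by rw [show S.1 = R from congrArg Subtype.val hS]; exact hR)
  have h0 : Nat.card {S : Sylow 3 G // x • S = S ∧ y • S ≠ S} = 0 :=
    Nat.eq_zero_of_dvd_of_lt hF hlt
  have hone : Nat.card {S : Sylow 3 G // x • S = S} ≤ 1 := by
    have hempty : IsEmpty {S : Sylow 3 G // x • S = S ∧ y • S ≠ S} :=
      (Nat.card_eq_zero.1 h0).resolve_right (fun hi => hi.not_finite inferInstance)
    rw [← hfy]
    exact Nat.card_le_card_of_injective
      (fun S => (⟨S.1, by_contra fun h => hempty.false ⟨S.1, S.2, h⟩⟩ : {S : Sylow 3 G // y • S = S}))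
      fun a b h => Subtype.ext (congrArg (fun z : {S : Sylow 3 G // y • S = S} => z.1) h)
  rw [five_moves hn hinj hx] at hone
  omega

end Cfsg.Agent.Struct4.TwentyTwo
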