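import Mathlib.GroupTheory.Sylow
import Mathlib.GroupTheory.Nilpotent

set_option autoImplicit false

namespace Cfsg.Agent.Lib.Struct4

variable {S : Type*} [Group S]

/-- The subgroup generated by the squares of elements of `P`. -/
def sqSub (P : Subgroup S) : Subgroup S := Subgroup.closure {x : S | ∃ y ∈ P, y * y = x}

theorem sq_mem_sqSub {P : Subgroup S} {y : S} (hy : y ∈ P) : y * y ∈ sqSub P :=
  Subgroup.subset_closure ⟨y, hy, rfl⟩

theorem sqSub_le (P : Subgroup S) : sqSub P ≤ P := by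
  rw [sqSub, Subgroup.closure_le]
  rintro _ ⟨y, hy, rfl⟩
  exact P.mul_mem hy hy

theorem sqSub_conj_mem (P : Subgroup S) {g : S} (hg : ∀ y ∈ P, g * y * g⁻¹ ∈ P) {x : S}
    (hx : x ∈ sqSub P) : g * x * g⁻¹ ∈ sqSub P := by
  induction hx using Subgroup.closure_induction with
  | mem a ha =>
    obtain ⟨y, hy, rfl⟩ := ha
    rw [show g * (y * y) * g⁻¹ = (g * y * g⁻¹) * (g * y * g⁻¹) by group]
    exact sq_mem_sqSub (hg y hy)
  | one => simp
  | mul a b _ _ iha ihb =>
    rw [show g * (a * b) * g⁻¹ = (g * a * g⁻¹) * (g * b * g⁻¹) by group]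
    exact mul_mem iha ihb
  | inv a _ ih =>
    rw [show g * a⁻¹ * g⁻¹ = (g * a * g⁻¹)⁻¹ by group]
    exact inv_mem ih

theorem commutator_mem_sqSub {P : Subgroup S} {a b : S} (ha : a ∈ P) (hb : b ∈ P) :
    a * b * a⁻¹ * b⁻¹ ∈ sqSub P := by
  rw [show a * b * a⁻¹ * b⁻¹ = (a * a) * ((a⁻¹ * b) * (a⁻¹ * b)) * (b⁻¹ * b⁻¹) by group]
  exact mul_mem (mul_mem (sq_mem_sqSub ha) (sq_mem_sqSub (P.mul_mem (P.inv_mem ha) hb)))
    (sq_mem_sqSub (P.inv_mem hb))

theorem sqSub_normal_in (P : Subgroup S) : ((sqSub P).subgroupOf P).Normal :=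
  ⟨fun n hn g => sqSub_conj_mem P (fun y hy => P.mul_mem (P.mul_mem g.2 hy) (P.inv_mem g.2)) hn⟩

variable [Finite S]

theorem isMulCommutative_of_sqSub (hS : IsPGroup 2 S) (P : Subgroup S)
    (h : (sqSub P).relIndex P < 4) : IsMulCommutative P := by
  haveI : Fact (Nat.Prime 2) := ⟨Nat.prime_two⟩
  have hP : IsPGroup 2 P := hS.to_subgroup P
  set N := (sqSub P).subgroupOf P
  haveI : N.Normal := sqSub_normal_in P
  have hcases : ∃ x : P, ∀ y : P, y ∈ N ∨ x⁻¹ * y ∈ N := by
    by_contra hc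
    push Not at hc
    obtain ⟨y, hy, hy'⟩ := hc 1
    obtain ⟨w, hw1, hw2⟩ := hc y
    have hyw : (QuotientGroup.mk' N y) ≠ QuotientGroup.mk' N w := fun e => hw2 (QuotientGroup.eq.1 e)
    have hy1 : QuotientGroup.mk' N y ≠ 1 := fun e => hy ((QuotientGroup.eq_one_iff y).1 e)
    have hw1' : QuotientGroup.mk' N w ≠ 1 := fun e => hw1 ((QuotientGroup.eq_one_iff w).1 e)
    obtain ⟨k, hk⟩ := IsPGroup.iff_card.1 (hP.to_quotient N)
    have hk4 : Nat.card (P ⧸ N) < 4 := h
    have hk3 : 3 ≤ Nat.card (P ⧸ N) := by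
      classical
      cases nonempty_fintype (P ⧸ N)
      rw [Nat.card_eq_fintype_card]
      refine le_trans ?_ (Finset.card_le_univ ({1, QuotientGroup.mk' N y, QuotientGroup.mk' N w} : Finset (P ⧸ N)))
      rw [Finset.card_insert_of_notMem, Finset.card_pair hyw]
      simp only [Finset.mem_insert, Finset.mem_singleton]
      rintro (e | e)
      · exact hy1 e.symm
      · exact hw1' e.symm
    rcases k with _ | _ | k
    · rw [hk] at hk3; norm_num at hk3
    · rw [hk] at hk3; norm_num at hk3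
    · rw [hk, pow_succ, pow_succ] at hk4
      have := Nat.one_le_two_pow (n := k)
      omega
  obtain ⟨x, hx⟩ := hcases
  have hcyc : Subgroup.zpowers x = ⊤ := by
    by_contra hne
    obtain ⟨M, hM, hle⟩ := (eq_top_or_exists_le_coatom (Subgroup.zpowers x)).resolve_left hne
    haveI := hP.isNilpotent
    have hMn : M.Normal := Subgroup.NormalizerCondition.normal_of_coatom M Group.normalizerCondition_of_isNilpotent hM
    haveI := hMn
    have hMidx : M.index = 2 := by
      obtain ⟨k, hk⟩ := hP.index M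
      have hk0 : k ≠ 0 := by
        rintro rfl
        exact hM.1 (Subgroup.index_eq_one.1 (by simpa using hk))
      have h2 : 2 ∣ M.index := hk ▸ dvd_pow_self 2 hk0
      obtain ⟨q, hq⟩ := exists_prime_orderOf_dvd_card' (G := P ⧸ M) 2 h2
      have hqne : Subgroup.zpowers q ≠ ⊥ := by
        rw [Ne, Subgroup.zpowers_eq_bot]
        intro h1; rw [h1, orderOf_one] at hq; omega
      have h3 := hM.2 ((Subgroup.zpowers q).comap (QuotientGroup.mk' M)) (by
        refine lt_of_le_of_ne ?_ fun e => hqne ?_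
        · intro z hz
          rw [Subgroup.mem_comap, QuotientGroup.mk'_apply, (QuotientGroup.eq_one_iff z).2 hz]
          exact one_mem _
        · rw [← Subgroup.map_comap_eq_self_of_surjective (QuotientGroup.mk'_surjective M) (Subgroup.zpowers q), ← e,
            (Subgroup.map_eq_bot_iff M).2 (QuotientGroup.ker_mk' M).ge])
      have h4 : Subgroup.zpowers q = ⊤ := by
        rw [← Subgroup.map_comap_eq_self_of_surjective (QuotientGroup.mk'_surjective M) (Subgroup.zpowers q), h3,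
          Subgroup.map_top_of_surjective _ (QuotientGroup.mk'_surjective M)]
      show Nat.card (P ⧸ M) = 2
      rw [← Subgroup.card_top, ← h4, Nat.card_zpowers, hq]
    have hNM : N ≤ M := by
      intro z hz
      have hz' : (z : S) ∈ sqSub P := hz
      have : ∀ a ∈ sqSub P, ∃ b : P, b ∈ M ∧ (b : S) = a := by
        intro a ha
        induction ha using Subgroup.closure_induction with
        | mem a ha =>
          obtain ⟨y, hy, rfl⟩ := ha
          exact ⟨⟨y, hy⟩ * ⟨y, hy⟩, Subgroup.mul_self_mem_of_index_two hMidx _, rfl⟩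
        | one => exact ⟨1, one_mem _, rfl⟩
        | mul a b _ _ iha ihb =>
          obtain ⟨a', ha', rfl⟩ := iha
          obtain ⟨b', hb', rfl⟩ := ihb
          exact ⟨a' * b', mul_mem ha' hb', rfl⟩
        | inv a _ ih =>
          obtain ⟨a', ha', rfl⟩ := ih
          exact ⟨a'⁻¹, inv_mem ha', rfl⟩
      obtain ⟨b, hb, hbz⟩ := this _ hz'
      rwa [← Subtype.ext hbz]
    apply hM.1
    rw [Subgroup.eq_top_iff']
    intro y
    rcases hx y with h | h
    · exact hNM h
    · have := M.mul_mem (hle (Subgroup.mem_zpowers x)) (hNM h)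
      simpa using this
  refine ⟨⟨fun a b => ?_⟩⟩
  obtain ⟨i, rfl⟩ := (hcyc ▸ Subgroup.mem_top a : a ∈ Subgroup.zpowers x)
  obtain ⟨j, rfl⟩ := (hcyc ▸ Subgroup.mem_top b : b ∈ Subgroup.zpowers x)
  exact (Commute.refl x).zpow_zpow i j

theorem exists_central_mem {p : ℕ} [Fact p.Prime] (hS : IsPGroup p S) (N : Subgroup S) [N.Normal]
    (hN : N ≠ ⊥) : ∃ z ∈ N, z ≠ 1 ∧ z ∈ Subgroup.center S := by
  haveI : Nontrivial N := (Subgroup.nontrivial_iff_ne_bot N).2 hN
  obtain ⟨k, hk⟩ := IsPGroup.iff_card.1 (hS.to_subgroup N)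
  have hk0 : k ≠ 0 := by
    rintro rfl
    exact hN (Subgroup.card_eq_one.1 (by simpa using hk))
  have hmod : IsPGroup p (ConjAct S) := hS.of_equiv ConjAct.toConjAct
  have hdvd : p ∣ Nat.card N := hk ▸ dvd_pow_self p hk0
  have h1 : (1 : N) ∈ MulAction.fixedPoints (ConjAct S) N := fun g => Subtype.ext (smul_one g)
  obtain ⟨z, hz, hz1⟩ := hmod.exists_fixed_point_of_prime_dvd_card_of_fixed_point N hdvd h1
  refine ⟨z, z.2, fun h => hz1 (Subtype.ext h.symm), Subgroup.mem_center_iff.2 fun g => ?_⟩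
  have h2 : g * (z : S) * g⁻¹ = z := congrArg Subtype.val (hz (ConjAct.toConjAct g))
  calc g * z = g * z * g⁻¹ * g := by group
    _ = z * g := by rw [h2]

theorem card_prod_le (P Q : Subgroup S) (hc : ∀ a ∈ P, ∀ b ∈ Q, a * b = b * a) (hd : P ⊓ Q = ⊥) :
    Nat.card (P ⊔ Q : Subgroup S) = Nat.card P * Nat.card Q ∧
      ∀ x ∈ P ⊔ Q, ∃ a ∈ P, ∃ b ∈ Q, a * b = x := by
  have hinj : Function.Injective (fun ab : P × Q => (ab.1 : S) * ab.2) := by
    rintro ⟨a, b⟩ ⟨a', b'⟩ h
    have h' : (a : S) * b = a' * b' := h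
    have e : (a' : S)⁻¹ * a = b' * (b : S)⁻¹ := by
      calc (a' : S)⁻¹ * a = (a' : S)⁻¹ * (a * b) * (b : S)⁻¹ := by group
        _ = _ := by rw [h']; group
    have hm : (a' : S)⁻¹ * a ∈ P ⊓ Q := ⟨P.mul_mem (P.inv_mem a'.2) a.2, e ▸ Q.mul_mem b'.2 (Q.inv_mem b.2)⟩
    rw [hd, Subgroup.mem_bot] at hm
    rw [hm] at e
    exact Prod.ext (Subtype.ext (inv_mul_eq_one.1 hm).symm) (Subtype.ext (mul_inv_eq_one.1 e.symm).symm)
  let f : P × Q →* S :=
    { toFun := fun ab => (ab.1 : S) * ab.2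
      map_one' := by simp
      map_mul' := by
        rintro ⟨a, b⟩ ⟨a', b'⟩
        simp only [Prod.mk_mul_mk, Subgroup.coe_mul]
        have := hc a' a'.2 b b.2
        rw [mul_assoc (a : S), ← mul_assoc (a' : S), this]
        group }
  have hrange : f.range = P ⊔ Q := by
    refine le_antisymm ?_ (sup_le ?_ ?_)
    · rintro _ ⟨⟨a, b⟩, rfl⟩
      exact mul_mem (Subgroup.mem_sup_left a.2) (Subgroup.mem_sup_right b.2)
    · exact fun a ha => ⟨(⟨a, ha⟩, 1), mul_one a⟩
    · exact fun b hb => ⟨(1, ⟨b, hb⟩), one_mul b⟩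
  refine ⟨?_, fun x hx => ?_⟩
  · rw [← hrange, ← Nat.card_congr (MonoidHom.ofInjective (f := f) hinj).toEquiv, Nat.card_prod]
  · rw [← hrange] at hx
    obtain ⟨⟨a, b⟩, rfl⟩ := hx
    exact ⟨a, a.2, b, b.2, rfl⟩

end Cfsg.Agent.Lib.Struct4
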