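import Mathlib
import Cfsg.Agent.Lib.Transfer.Fusion
import Cfsg.Agent.Lib.Transfer.Basic

/-! Wielandt's theorem on nilpotent Hall subgroups, with a direct factor. -/

set_option autoImplicit false

namespace Cfsg.Agent.Struct4.WielandtHall

open Cfsg.Agent.Lib.Transfer

universe u

variable {G : Type u} [Group G] [Finite G]

/-- All prime divisors of the order lie in `π`. -/
abbrev IsPi (π : Set ℕ) (K : Subgroup G) : Prop := ∀ p : ℕ, p.Prime → p ∣ Nat.card K → p ∈ π

/-- A normalizing element whose order avoids the index of the centralizer centralizes. -/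
theorem mem_centralizer_of_coprime (B : Subgroup G) {g : G} (hg : g ∈ Subgroup.normalizer (B : Set G))
    (h : ∀ r : ℕ, r.Prime → r ∣ orderOf g → ¬ r ∣ (Subgroup.centralizer (B : Set G)).index) :
    g ∈ Subgroup.centralizer (B : Set G) := by
  set N := Subgroup.normalizer (B : Set G)
  set C := Subgroup.centralizer (B : Set G)
  have hn : (C.subgroupOf N).Normal := by
    show ((Subgroup.centralizer (B : Set G)).subgroupOf (Subgroup.normalizer (B : Set G))).Normal
    rw [← Subgroup.normalizerMonoidHom_ker]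
    infer_instance
  have h2 : orderOf (QuotientGroup.mk' (C.subgroupOf N) ⟨g, hg⟩) = 1 := by
    by_contra h1
    obtain ⟨r, hr, hd⟩ := Nat.exists_prime_and_dvd h1
    refine h r hr ?_ ?_
    · have h3 := hd.trans (orderOf_map_dvd (QuotientGroup.mk' (C.subgroupOf N)) ⟨g, hg⟩)
      rwa [Subgroup.orderOf_mk] at h3
    · have h3 : r ∣ C.relIndex N := hd.trans (orderOf_dvd_natCard _)
      exact h3.trans (Dvd.intro _ (Subgroup.relIndex_mul_index (Subgroup.centralizer_le_normalizer _)))
  rw [orderOf_eq_one_iff] at h2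
  exact Subgroup.mem_subgroupOf.1 ((QuotientGroup.eq_one_iff _).1 h2)

theorem normal_sylow {H : Subgroup G} (hH : Group.IsNilpotent H) {p : ℕ} [Fact p.Prime] (P : Sylow p H) :
    (P : Subgroup H).Normal :=
  haveI := hH
  Sylow.normal_of_normalizerCondition Group.normalizerCondition_of_isNilpotent P

/-- In a nilpotent subgroup, subgroups of coprime prime power orders commute. -/
theorem sylow_le_centralizer {H V : Subgroup G} (hH : Group.IsNilpotent H) {p r : ℕ} [Fact p.Prime] [Fact r.Prime]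
    (hpr : r ≠ p) (hV : V ≤ H) (hVp : IsPGroup p V) (R : Sylow r H) :
    (R : Subgroup H).map H.subtype ≤ Subgroup.centralizer (V : Set G) := by
  rintro _ ⟨x, hx, rfl⟩
  rw [Subgroup.mem_centralizer_iff]
  intro v hv
  obtain ⟨P, hP⟩ := (hVp.comap_subtype (K := H)).exists_le_sylow
  have hn1 : (R : Subgroup H).Normal := normal_sylow hH R
  have hn2 : (P : Subgroup H).Normal := normal_sylow hH P
  have := Subgroup.commute_of_normal_of_disjoint _ _ hn2 hn1
    (IsPGroup.disjoint_of_ne _ _ (Ne.symm hpr) _ _ P.isPGroup' R.isPGroup') ⟨v, hV hv⟩ x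
    (hP (Subgroup.mem_subgroupOf.2 hv)) hx
  exact congrArg Subtype.val this.eq

theorem index_centralizer (π : Set ℕ) {B X : Subgroup G} (hX : ∀ r : ℕ, r.Prime → r ∈ π → ¬ r ∣ X.index)
    (h : X ≤ Subgroup.centralizer (B : Set G)) (r : ℕ) (hr : r.Prime) (hrπ : r ∈ π) :
    ¬ r ∣ (Subgroup.centralizer (B : Set G)).index :=
  fun hd => hX r hr hrπ (hd.trans (Subgroup.index_dvd_of_le h))

theorem index_conj (X : Subgroup G) (c : G) : (X.map (MulAut.conj c).toMonoidHom).index = X.index :=
  Subgroup.index_map_equiv X (MulAut.conj c)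

theorem isPi_conj {π : Set ℕ} {X : Subgroup G} (h : IsPi π X) (c : G) : IsPi π (X.map (MulAut.conj c).toMonoidHom) := by
  intro p hp hd
  rw [Subgroup.card_map_of_injective (MulEquiv.injective _)] at hd
  exact h p hp hd

/-- The general embedding: `σ`-embedding in centralizers and `τ`-embedding give embedding of `σ ∪ τ`-subgroups. -/
theorem embed_join (σ τ : Set ℕ) (hd : Disjoint σ τ) (Hs Ht : Subgroup G) (hsn : Group.IsNilpotent Hs)
    (hst : ∀ a ∈ Hs, ∀ b ∈ Ht, a * b = b * a)
    (his : ∀ r : ℕ, r.Prime → r ∈ σ → ¬ r ∣ Hs.index) (hit : ∀ r : ℕ, r.Prime → r ∈ τ → ¬ r ∣ Ht.index)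
    (E1 : ∀ B : Subgroup G, IsPi τ B → ∃ c, B ≤ Ht.map (MulAut.conj c).toMonoidHom)
    (E2 : ∀ (c : G) (M : Subgroup G), Hs.map (MulAut.conj c).toMonoidHom ≤ M → ∀ A ≤ M, IsPi σ A →
      ∃ d ∈ M, A ≤ Hs.map (MulAut.conj (d * c)).toMonoidHom)
    (K : Subgroup G) (hK : IsPi (σ ∪ τ) K) : ∃ g, K ≤ (Hs ⊔ Ht).map (MulAut.conj g).toMonoidHom := by
  classical
  have hcomm : ∀ c, ∀ a ∈ Hs.map (MulAut.conj c).toMonoidHom, ∀ b ∈ Ht.map (MulAut.conj c).toMonoidHom,
      a * b = b * a := by
    rintro c _ ⟨a, ha, rfl⟩ _ ⟨b, hb, rfl⟩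
    rw [← map_mul, ← map_mul, hst a ha b hb]
  -- `p`-complements
  have hcompl : ∀ p, p.Prime → p ∈ σ → HasNormalPComplement p K := by
    intro p hp hpσ
    have := Fact.mk hp
    refine frobenius_criterion fun V hV g hg hgo => ?_
    set V' := V.map K.subtype with hV'
    have hV'p : IsPGroup p V' := hV.map _
    have hgN : (g : G) ∈ Subgroup.normalizer (V' : Set G) :=
      Subgroup.le_normalizer_map _ ⟨g, hg, rfl⟩
    have hmem : (g : G) ∈ Subgroup.centralizer (V' : Set G) := by
      refine mem_centralizer_of_coprime V' hgN fun r hr hrg => ?_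
      rw [Subgroup.orderOf_coe] at hrg
      have := Fact.mk hr
      have hrp : r ≠ p := fun e => by
        subst e
        exact hr.ne_one (Nat.Coprime.eq_one_of_dvd hgo.symm hrg)
      obtain ⟨k, hk⟩ := IsPGroup.iff_card.1 hV'p
      obtain ⟨d, -, hdV⟩ := E2 1 ⊤ le_top V' le_top (fun q hq hqd => by
        rw [hk] at hqd
        exact ((Nat.prime_dvd_prime_iff_eq hq hp).1 (hq.dvd_of_dvd_pow hqd)) ▸ hpσ)
      rw [mul_one] at hdV
      set Hd := Hs.map (MulAut.conj d).toMonoidHom with hHd
      rcases hK r hr (hrg.trans (orderOf_dvd_natCard _)) with hrσ | hrτ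
      · have hnil : Group.IsNilpotent Hd :=
          haveI := hsn
          Group.nilpotent_of_mulEquiv (Hs.equivMapOfInjective _ (MulEquiv.injective _))
        obtain ⟨R⟩ : Nonempty (Sylow r Hd) := inferInstance
        refine index_centralizer {r} ?_ (sylow_le_centralizer hnil hrp hdV hV'p R) r hr rfl
        intro q hq hqr hqd
        obtain rfl : q = r := hqr
        rw [Subgroup.index_map_subtype] at hqd
        rcases (Nat.Prime.dvd_mul hq).1 hqd with h | h
        · exact R.not_dvd_index h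
        · exact his q hq hrσ (by rwa [hHd, index_conj] at h)
      · refine index_centralizer τ (fun q hq hqτ => by rw [index_conj Ht d]; exact hit q hq hqτ) ?_ r hr hrτ
        intro b hb
        exact Subgroup.mem_centralizer_iff.2 fun v hv => hcomm d v (hdV hv) b hb
    rw [Subgroup.mem_centralizer_iff] at hmem ⊢
    intro x hx
    exact Subtype.ext (hmem x ⟨x, hx, rfl⟩)
  -- the normal `τ`-part
  set S : Set K := {g | ∀ r : ℕ, r.Prime → r ∣ orderOf g → r ∈ τ}
  set M := Subgroup.closure S with hM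
  have hMn : M.Normal := Subgroup.Normal.of_conjugate_fixed fun h => by
    show Subgroup.map (MulAut.conj h).toMonoidHom M = M
    rw [hM, MonoidHom.map_closure]
    congr 1
    ext x
    constructor
    · rintro ⟨y, hy, rfl⟩ r hr hrd
      exact hy r hr (by rwa [MulEquiv.coe_toMonoidHom, MulEquiv.orderOf_eq] at hrd)
    · intro hx
      refine ⟨(MulAut.conj h).symm x, fun r hr hrd => hx r hr (by rwa [MulEquiv.orderOf_eq] at hrd), ?_⟩
      exact (MulAut.conj h).apply_symm_apply x
  have hMτ : IsPi (G := K) τ M := by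
    intro r hr hrd
    rcases hK r hr (hrd.trans (Subgroup.card_subgroup_dvd_card _)) with hrσ | hrτ
    · exfalso
      have := Fact.mk hr
      refine (hasNormalPComplement_iff.1 (hcompl r hr hrσ)) (hrd.trans (Subgroup.card_dvd_of_le ?_))
      refine (Subgroup.closure_le _).2 fun g hg => mem_pResidual ?_
      refine Nat.coprime_of_dvd fun q hq hqg hqr => ?_
      obtain rfl := (Nat.prime_dvd_prime_iff_eq hq hr).1 hqr
      exact hd.le_bot ⟨hrσ, hg q hq hqg⟩
    · exact hrτ
  have hMidx : ∀ r : ℕ, r.Prime → r ∈ τ → ¬ r ∣ M.index := by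
    intro r hr hrτ
    have := Fact.mk hr
    obtain ⟨R⟩ : Nonempty (Sylow r K) := inferInstance
    have hRM : (R : Subgroup K) ≤ M := fun x hx => Subgroup.subset_closure fun q hq hqx => by
      obtain ⟨k, hk⟩ := IsPGroup.iff_orderOf.1 R.isPGroup' ⟨x, hx⟩
      rw [Subgroup.orderOf_mk] at hk
      rw [hk] at hqx
      exact ((Nat.prime_dvd_prime_iff_eq hq hr).1 (hq.dvd_of_dvd_pow hqx)) ▸ hrτ
    exact fun h => R.not_dvd_index (h.trans (Subgroup.index_dvd_of_le hRM))
  obtain ⟨A, hA⟩ := Subgroup.exists_left_complement'_of_coprime (N := M) (Nat.coprime_of_dvd fun r hr h1 h2 =>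
    hMidx r hr (hMτ r hr h1) h2)
  set A' := A.map K.subtype with hA'
  set M' := M.map K.subtype with hM'
  have hA'σ : IsPi σ A' := by
    intro r hr hrd
    rw [hA', Subgroup.card_map_of_injective K.subtype_injective] at hrd
    refine (hK r hr (hrd.trans (Subgroup.card_subgroup_dvd_card _))).resolve_right fun h => hMidx r hr h ?_
    rwa [hA.index_eq_card]
  obtain ⟨c, hc⟩ := E1 M' fun r hr hrd => hMτ r hr (by rwa [hM', Subgroup.card_map_of_injective K.subtype_injective] at hrd)
  have hHc : Hs.map (MulAut.conj c).toMonoidHom ≤ Subgroup.centralizer (M' : Set G) := fun a ha =>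
    Subgroup.mem_centralizer_iff.2 fun m hm => (hcomm c a ha m (hc hm)).symm
  have hAC : A' ≤ Subgroup.centralizer (M' : Set G) := by
    intro a ha
    refine mem_centralizer_of_coprime M' ?_ fun r hr hra => ?_
    · obtain ⟨a₀, -, rfl⟩ := ha
      exact Subgroup.le_normalizer_map _ ⟨a₀, by rw [Subgroup.normalizer_eq_top]; trivial, rfl⟩
    · have hrσ : r ∈ σ := hA'σ r hr (hra.trans (Subgroup.orderOf_dvd_natCard _ ha))
      exact index_centralizer σ (fun q hq hqσ => by rw [index_conj Hs c]; exact his q hq hqσ) hHc r hr hrσ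
  obtain ⟨d, hdC, hdA⟩ := E2 c _ hHc A' hAC hA'σ
  refine ⟨d * c, ?_⟩
  have hKsup : K ≤ A' ⊔ M' := by
    rw [hA', hM', ← Subgroup.map_sup, hA.sup_eq_top, ← MonoidHom.range_eq_map, Subgroup.range_subtype]
  refine hKsup.trans (sup_le (hdA.trans (Subgroup.map_mono le_sup_left)) fun m hm => ?_)
  obtain ⟨t, ht, htm⟩ := hc hm
  refine ⟨t, Subgroup.mem_sup_right ht, ?_⟩
  have hdm := Subgroup.mem_centralizer_iff.1 hdC m hm
  simp only [MulEquiv.coe_toMonoidHom, MulAut.conj_apply] at htm ⊢
  calc d * c * t * (d * c)⁻¹ = d * (c * t * c⁻¹) * d⁻¹ := by group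
    _ = d * m * d⁻¹ := by rw [htm]
    _ = m := by rw [← hdm, mul_inv_cancel_right]

/-- Wielandt: every `σ`-subgroup lies in a conjugate of a nilpotent Hall `σ`-subgroup. -/
theorem embed_nilpotent (n : ℕ) : ∀ (G : Type u) [Group G] [Finite G] (H : Subgroup G), Nat.card H = n →
    Group.IsNilpotent H → Nat.Coprime (Nat.card H) H.index → ∀ A : Subgroup G,
      (∀ p : ℕ, p.Prime → p ∣ Nat.card A → p ∣ Nat.card H) →
      ∃ g, A ≤ H.map (MulAut.conj g).toMonoidHom := by
  induction n using Nat.strong_induction_on with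
  | _ n ih =>
  intro G _ _ H hn hnil hcop A hA
  rcases eq_or_ne (Nat.card H) 1 with h1 | h1
  · refine ⟨1, ?_⟩
    have : A = ⊥ := by
      rw [← Subgroup.card_eq_one]
      by_contra h
      obtain ⟨p, hp, hd⟩ := Nat.exists_prime_and_dvd h
      exact hp.ne_one (Nat.dvd_one.1 (h1 ▸ hA p hp hd))
    rw [this]
    exact bot_le
  obtain ⟨p, hp, hpH⟩ := Nat.exists_prime_and_dvd h1
  have := Fact.mk hp
  obtain ⟨P⟩ : Nonempty (Sylow p H) := inferInstance
  have hPn : (P : Subgroup H).Normal := normal_sylow hnil P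
  obtain ⟨Q, hQ⟩ := Subgroup.exists_right_complement'_of_coprime (N := (P : Subgroup H)) P.card_coprime_index
  set Hs := Q.map H.subtype with hHs
  set Ht := (P : Subgroup H).map H.subtype with hHt
  have hHs_card : Nat.card Hs = Nat.card Q := Subgroup.card_map_of_injective H.subtype_injective
  have hmul : Nat.card (P : Subgroup H) * Nat.card Q = Nat.card H := hQ.card_mul
  have hidxQ : Q.index = Nat.card (P : Subgroup H) := hQ.index_eq_card
  have hQp : ¬ p ∣ Nat.card Q := by
    rw [← hQ.symm.index_eq_card]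
    exact P.not_dvd_index
  have hindex : ∀ (X : Subgroup H) (r : ℕ), r.Prime → ¬ r ∣ X.index → r ∣ Nat.card H → ¬ r ∣ (X.map H.subtype).index := by
    intro X r hr hX hrH hd
    rw [Subgroup.index_map_subtype] at hd
    rcases (Nat.Prime.dvd_mul hr).1 hd with h | h
    · exact hX h
    · exact hr.ne_one (Nat.Coprime.eq_one_of_dvd (hcop.coprime_dvd_left hrH) h)
  have hlt : Nat.card Hs < n := by
    rw [hHs_card, ← hn, ← hmul]
    exact lt_mul_of_one_lt_left Nat.card_pos (lt_of_lt_of_le hp.one_lt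
      (Nat.le_of_dvd Nat.card_pos (P.dvd_card_of_dvd_card hpH)))
  obtain ⟨k, hk⟩ := IsPGroup.iff_card.1 P.isPGroup'
  have hsn : Group.IsNilpotent Hs :=
    haveI := hnil
    Group.nilpotent_of_mulEquiv (Q.equivMapOfInjective _ H.subtype_injective)
  have hcom : ∀ a ∈ Hs, ∀ b ∈ Ht, a * b = b * a := by
    intro a ha b hb
    by_contra hne
    -- decompose `a` into elements of prime power order
    have hQC : Q ≤ Subgroup.centralizer ((P : Subgroup H) : Set H) := by
      intro q hq
      refine mem_centralizer_of_coprime (P : Subgroup H) (by rw [Subgroup.normalizer_eq_top]; trivial) fun r hr hrq => ?_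
      have := Fact.mk hr
      obtain ⟨R⟩ : Nonempty (Sylow r H) := inferInstance
      have hrp : r ≠ p := fun e => hQp (e ▸ hrq.trans (Subgroup.orderOf_dvd_natCard _ hq))
      obtain ⟨T, hT⟩ : ∃ T : Subgroup H, T = ⊤ := ⟨⊤, rfl⟩
      intro hrd
      refine R.not_dvd_index (hrd.trans (Subgroup.index_dvd_of_le fun x hx => ?_))
      rw [Subgroup.mem_centralizer_iff]
      intro v hv
      have hn1 : (R : Subgroup H).Normal := normal_sylow hnil R
      exact (Subgroup.commute_of_normal_of_disjoint _ _ hPn hn1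
        (IsPGroup.disjoint_of_ne _ _ (Ne.symm hrp) _ _ P.isPGroup' R.isPGroup') v x hv hx).eq
    obtain ⟨a', ha', rfl⟩ := ha
    obtain ⟨b', hb', rfl⟩ := hb
    exact hne (congrArg Subtype.val (Subgroup.mem_centralizer_iff.1 (hQC ha') b' hb').symm)
  obtain ⟨g, hg⟩ := embed_join {r | r ∣ Nat.card Q} {p} (Set.disjoint_singleton_right.2 hQp) Hs Ht hsn hcom
    (fun r hr hrQ => hindex Q r hr (fun h => by
        rw [hidxQ, hk] at h
        exact hQp ((Nat.prime_dvd_prime_iff_eq hr hp).1 (hr.dvd_of_dvd_pow h) ▸ hrQ))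
      (hrQ.trans (Subgroup.card_subgroup_dvd_card Q)))
    (fun r hr hrp => by obtain rfl : r = p := hrp; exact hindex _ r hr P.not_dvd_index hpH)
    (fun B hB => by
      have hBp : IsPGroup p B := IsPGroup.of_card (n := (Nat.card B).primeFactorsList.length)
        (Nat.eq_prime_pow_of_unique_prime_dvd Nat.card_pos.ne' fun {d} hd hdB => hB d hd hdB)
      obtain ⟨T, hT⟩ := hBp.exists_le_sylow
      have hHtp : IsPGroup p Ht := P.isPGroup'.map _
      let S : Sylow p G := hHtp.toSylow (hindex _ p hp P.not_dvd_index hpH)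
      obtain ⟨c, hc⟩ := MulAction.exists_smul_eq G S T
      refine ⟨c, ?_⟩
      rw [← hc] at hT
      exact hT)
    (fun c M hcM A hAM hA' => by
      set Hc := Hs.map (MulAut.conj c).toMonoidHom with hHc
      have hcardc : Nat.card Hc = Nat.card Hs := Subgroup.card_map_of_injective (MulEquiv.injective _)
      have hcardM : Nat.card (Hc.subgroupOf M) = Nat.card Hs :=
        (Nat.card_congr (Subgroup.subgroupOfEquivOfLe hcM).toEquiv).trans hcardc
      obtain ⟨d, hd⟩ := ih _ hlt M (Hc.subgroupOf M) hcardM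
        (by
          haveI := hsn
          exact Group.nilpotent_of_mulEquiv ((Hs.equivMapOfInjective _ (MulEquiv.injective _)).trans
            (Subgroup.subgroupOfEquivOfLe hcM).symm))
        (by
          rw [hcardM]
          refine Nat.coprime_of_dvd fun r hr h1 h2 => ?_
          have h3 : r ∣ Hc.index := h2.trans (Subgroup.relIndex_mul_index hcM ▸ dvd_mul_right _ _)
          rw [hHc, index_conj] at h3
          refine hindex Q r hr (fun h => ?_) ((hHs_card ▸ h1).trans (Subgroup.card_subgroup_dvd_card Q)) h3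
          rw [hidxQ, hk] at h
          exact hQp ((Nat.prime_dvd_prime_iff_eq hr hp).1 (hr.dvd_of_dvd_pow h) ▸ hHs_card ▸ h1))
        (A.subgroupOf M)
        (fun r hr hrd => by
          rw [hcardM, hHs_card]
          exact hA' r hr (by rwa [Nat.card_congr (Subgroup.subgroupOfEquivOfLe hAM).toEquiv] at hrd))
      refine ⟨d, d.2, fun a ha => ?_⟩
      obtain ⟨x, hx, hxa⟩ := hd (Subgroup.mem_subgroupOf.2 ha : (⟨a, hAM ha⟩ : M) ∈ A.subgroupOf M)
      obtain ⟨y, hy, hyx⟩ := Subgroup.mem_subgroupOf.1 hx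
      refine ⟨y, hy, ?_⟩
      have hxa' : (d : G) * (x : G) * (d : G)⁻¹ = a := congrArg Subtype.val hxa
      rw [← hyx] at hxa'
      simp only [MulEquiv.coe_toMonoidHom, MulAut.conj_apply] at hxa' ⊢
      rw [← hxa']
      group)
    A (fun r hr hrA => by
      rcases (Nat.Prime.dvd_mul hr).1 (hmul.symm ▸ hA r hr hrA) with h | h
      · rw [hk] at h
        exact Or.inr ((Nat.prime_dvd_prime_iff_eq hr hp).1 (hr.dvd_of_dvd_pow h))
      · exact Or.inl h)
  refine ⟨g, hg.trans (Subgroup.map_mono (sup_le ?_ ?_))⟩ <;> exact Subgroup.map_subtype_le _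

end Cfsg.Agent.Struct4.WielandtHall
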